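import Cfsg.Agent.Odc.A

/-! Anticentral elements: the predicate and its closure properties -/

set_option autoImplicit false

namespace CF.Anc
open Subgroup CF.BG
open CF.Odc (Cv Nf cv_of_le cv_of_sup)
open scoped commutatorElement Pointwise

universe u
variable {Γ : Type*} [Group Γ] {Γ' : Type*} [Group Γ']

/-- the coset `G x` lies in the class of `x`, and `D` is the minimal supplement containing `x` -/
structure Ac (G D : Subgroup Γ) (x : Γ) : Prop where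
  norm : D ≤ 𝐍 G
  mem : x ∈ D
  cj : ∀ g ∈ G, ∃ h ∈ G ⊔ D, h * x * h⁻¹ = g * x
  sup : ∀ E, x ∈ E → Cv G D E → D ≤ E
  uni : ∀ E, D ≤ E → ∀ h ∈ G ⊔ D, h * x * h⁻¹ ∈ E → h ∈ E

/-- `A` is the minimal supplement of some anticentral element -/
def Fp (G A : Subgroup Γ) : Prop := ∃ x, Ac G A x

variable {G A B D E H K N L U : Subgroup Γ} {x : Γ}

theorem Fp.norm (h : Fp G A) : A ≤ 𝐍 G := let ⟨_, k⟩ := h; k.norm

theorem Ac.mono (h : Ac G D x) (hH : H ≤ G) (n : D ≤ 𝐍 H) : Ac H D x where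
  norm := n
  mem := h.mem
  cj g hg :=
    let ⟨k, hk, e⟩ := h.cj g (hH hg)
    ⟨k, h.uni _ le_sup_right k hk (e ▸ mul_mem (mem_sup_left hg) (mem_sup_right h.mem)), e⟩
  sup E hx c := h.sup E hx (c.mono hH le_rfl)
  uni E l k hk := h.uni E l k (sup_le_sup_right hH D hk)

theorem Fp.mono (h : Fp G A) (hH : H ≤ G) (n : A ≤ 𝐍 H) : Fp H A :=
  let ⟨x, k⟩ := h; ⟨x, k.mono hH n⟩

protected theorem Ac.map (h : Ac G D x) (φ : Γ →* Γ') : Ac (G.map φ) (D.map φ) (φ x) where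
  norm := map_norm h.norm φ
  mem := mem_map_of_mem φ h.mem
  cj := by
    rintro _ ⟨g, hg, rfl⟩
    obtain ⟨k, hk, e⟩ := h.cj g hg
    exact ⟨φ k, Subgroup.map_sup G D φ ▸ mem_map_of_mem φ hk, by simpa using congrArg φ e⟩
  sup E hx c := map_le_iff_le_comap.2 (h.sup _ hx fun a ha => by
    obtain ⟨_, ⟨g, hg, rfl⟩, e⟩ := c _ (mem_map_of_mem φ ha)
    exact ⟨g, hg, by rwa [mem_comap, map_mul]⟩)
  uni E l k hk e := by
    rw [← Subgroup.map_sup] at hk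
    obtain ⟨k, hk, rfl⟩ := hk
    exact h.uni (E.comap φ) (map_le_iff_le_comap.1 l) k hk (by simpa [mem_comap] using e)

protected theorem Fp.map (h : Fp G A) (φ : Γ →* Γ') : Fp (G.map φ) (A.map φ) :=
  let ⟨_, k⟩ := h; ⟨_, k.map φ⟩

theorem ac_of_map {f : Γ →* Γ'} (hf : Function.Injective f) (h : Ac (G.map f) (D.map f) (f x)) :
    Ac G D x where
  norm := (map_norm_iff hf).1 h.norm
  mem := (mem_map_iff_mem hf).1 h.mem
  cj g hg := by
    obtain ⟨k, hk, e⟩ := h.cj _ (mem_map_of_mem f hg)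
    rw [← Subgroup.map_sup] at hk
    obtain ⟨k, hk, rfl⟩ := hk
    exact ⟨k, hk, hf (by simpa using e)⟩
  sup E hx c := (map_le_map_iff_of_injective hf).1 (h.sup _ (mem_map_of_mem f hx) (by
    rintro _ ⟨a, ha, rfl⟩
    obtain ⟨g, hg, e⟩ := c a ha
    exact ⟨_, mem_map_of_mem f hg, map_mul f g a ▸ mem_map_of_mem f e⟩))
  uni E l k hk e := (mem_map_iff_mem hf).1 (h.uni (E.map f) (map_mono l) _
    (Subgroup.map_sup G D f ▸ mem_map_of_mem f hk) (by simpa using mem_map_of_mem f e))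

protected theorem Fp.subgroupOf (h : Fp G A) (hG : G ≤ L) (hA : A ≤ L) :
    Fp (G.subgroupOf L) (A.subgroupOf L) :=
  let ⟨x, k⟩ := h
  ⟨⟨x, hA k.mem⟩, ac_of_map L.subtype_injective (by rwa [map_subgroupOf hG, map_subgroupOf hA])⟩

protected theorem Fp.qt (h : Fp G A) (g : G ≤ 𝐍 N) (a : A ≤ 𝐍 N) : Fp (qt N G) (qt N A) :=
  (h.subgroupOf g a).map _

theorem Ac.conj (h : Ac G D x) {g : Γ} (hg : g ∈ 𝐍 G) : Ac G (BG.cj g D) (g * x * g⁻¹) := by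
  have := h.map (MulAut.conj g).toMonoidHom
  rwa [show G.map (MulAut.conj g).toMonoidHom = G from cj_of_norm hg] at this

theorem Fp.conj (h : Fp G A) {g : Γ} (hg : g ∈ 𝐍 G) : Fp G (cj g A) :=
  let ⟨_, k⟩ := h; ⟨_, k.conj hg⟩

theorem cv_cj (n : A ≤ 𝐍 G) {g : Γ} (hg : g ∈ G) : Cv G A (cj g A) := fun a ha =>
  ⟨g * (a * g⁻¹ * a⁻¹), mul_mem hg (conj_mem_of_norm (n ha) (inv_mem hg)), by
    rw [show g * (a * g⁻¹ * a⁻¹) * a = g * a * g⁻¹ by group]; exact conj_mem_cj.2 ha⟩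

/-- a covering subgroup contains a conjugate of `A` -/
theorem Fp.fix (h : Fp G A) (c : Cv G A E) : ∃ g ∈ G, cj g A ≤ E := by
  obtain ⟨x, h⟩ := h
  obtain ⟨g, hg, e⟩ := c x h.mem
  obtain ⟨k, hk, e'⟩ := h.cj g hg
  obtain ⟨b, hb, d, hd, rfl⟩ := (mem_sup_norm' h.norm).1 hk
  refine ⟨b, hb, ?_⟩
  have : A ≤ cj (b * d)⁻¹ E := h.sup _ (mem_cj.2 (by rw [inv_inv, e']; exact e)) fun a ha => by
    obtain ⟨g', hg', e⟩ := c _ (mul_mem (mul_mem hd ha) (inv_mem hd))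
    refine ⟨(b * d)⁻¹ * (g' * (d * a * d⁻¹)) * (b * d) * a⁻¹, ?_, mem_cj.2 (by simpa [mul_assoc] using e)⟩
    rw [show (b * d)⁻¹ * (g' * (d * a * d⁻¹)) * (b * d) * a⁻¹ =
      d⁻¹ * (b⁻¹ * g') * d * (a * (d⁻¹ * b * d) * a⁻¹) by group]
    exact mul_mem (conj_mem_of_norm' (h.norm hd) (mul_mem (inv_mem hb) hg'))
      (conj_mem_of_norm (h.norm ha) (conj_mem_of_norm' (h.norm hd) hb))
  have := cj_mono (b * d) this
  rwa [cj_cj, mul_inv_cancel, cj_one, ← cj_cj, cj_of_norm (le_norm_self A hd)] at this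

/-- elements of `G` are commutators -/
theorem Fp.comm (h : Fp G A) {t : Γ} (ht : t ∈ G) :
    ∃ a ∈ G ⊔ A, ∃ b ∈ G ⊔ A, t = a * b * a⁻¹ * b⁻¹ :=
  let ⟨x, k⟩ := h
  let ⟨a, ha, e⟩ := k.cj t ht
  ⟨a, ha, x, mem_sup_right k.mem, by rw [e, mul_inv_cancel_right]⟩

/-- the centralizer of `A` in `G` lies in `A` -/
theorem Fp.cent_le (h : Fp G A) : G ⊓ 𝐂 A ≤ A := fun g hg =>
  let ⟨x, k⟩ := h
  k.uni A le_rfl g (mem_sup_left hg.1) (by
    rw [← mem_cent.1 hg.2 x k.mem, mul_inv_cancel_right]; exact k.mem)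

end CF.Anc
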