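import Cfsg.Agent.Anc.Defs
import Cfsg.Agent.Odc.S3

/-! Anticentral elements: chief factors, the transfer lemma and index at most four -/

set_option autoImplicit false

namespace CF.Anc
open Subgroup CF.BG CF.Odc
open scoped commutatorElement Pointwise

universe u
variable {Γ : Type u} [Group Γ] [Finite Γ] {A B D K N Q R U V W : Subgroup Γ} {x y z c u : Γ}

/-- the transfer lemma -/
theorem cyc_lem {a b : Γ} (ha : a ∈ N) (hb : b ∈ N) (e : u = a * b * a⁻¹ * b⁻¹)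
    (n : u ∈ 𝐍 (zpowers c))
    (h : ∀ g ∈ N, g ∈ 𝐍 (zpowers c) ∨ u * (g * c * g⁻¹) = g * c * g⁻¹ * u) : u * c = c * u := by
  classical
  have hu : u ∈ N := e ▸ mul_mem (mul_mem (mul_mem ha hb) (inv_mem ha)) (inv_mem hb)
  let H : Subgroup N := (𝐍 (zpowers c)).subgroupOf N
  let ψ : H →* ↥(𝐍 (zpowers c)) := (N.subtype.comp H.subtype).codRestrict _ fun h => h.2
  have cy : IsCyclic (zpowers c) := inferInstance
  let ϕ : H →* (ZMod (Nat.card (zpowers c)))ˣ :=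
    (IsCyclic.mulAutMulEquiv (zpowers c)).toMonoidHom.comp
      ((zpowers c).normalizerMonoidHom.comp ψ)
  have k : ∀ h : H, ϕ h = 1 ↔ ((h : N) : Γ) ∈ 𝐂₁ c := fun h => by
    rw [← cent_zpowers]
    simp only [ϕ, MonoidHom.comp_apply, MulEquiv.coe_toMonoidHom, EmbeddingLike.map_eq_one_iff]
    rw [← MonoidHom.mem_ker, normalizerMonoidHom_ker, mem_subgroupOf]
    rfl
  have t1 : MonoidHom.transfer ϕ ⟨u, hu⟩ = 1 := by
    rw [show (⟨u, hu⟩ : N) = ⟨a, ha⟩ * ⟨b, hb⟩ * ⟨a, ha⟩⁻¹ * ⟨b, hb⟩⁻¹ from Subtype.ext e]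
    simp only [map_mul, map_inv]
    rw [mul_right_comm (MonoidHom.transfer ϕ ⟨a, ha⟩), mul_inv_cancel, one_mul, mul_inv_cancel]
  have cc : ∀ g : N, g ∉ H → ((g⁻¹ * ⟨u, hu⟩ * g : N) : Γ) ∈ 𝐂₁ c := fun g hg => by
    have := (h g g.2).resolve_left hg
    refine mem_cent1.2 ?_
    calc _ = (g : Γ)⁻¹ * (u * (g * c * (g : Γ)⁻¹)) * g := by simp [mul_assoc]
      _ = _ := by rw [this]; simp [mul_assoc]
  have m : ∀ g : N, g⁻¹ * ⟨u, hu⟩ * g ∈ H := fun g => by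
    by_cases hg : g ∈ H
    · exact mul_mem (mul_mem (inv_mem hg) n) hg
    · exact cent_le_norm _ (cent_zpowers c ▸ cc g hg)
  have fx : ∀ q : N ⧸ H, (⟨u, hu⟩ : N)⁻¹ • q = q := fun q => by
    rw [inv_smul_eq_iff, ← q.out_eq, MulAction.Quotient.smul_mk, QuotientGroup.eq, smul_eq_mul,
      ← mul_assoc]
    exact m _
  let T : H.LeftTransversal := default
  let _ := H.fintypeQuotientOfFiniteIndex
  rw [MonoidHom.transfer_def ϕ T, leftTransversals.diff] at t1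
  simp only [smul_apply_eq_smul_apply_inv_smul, fx, smul_eq_mul] at t1
  rw [Fintype.prod_eq_single ((1 : N) : N ⧸ H) fun q hq => (k _).2 (by
    have := cc (T.2.leftQuotientEquiv q) fun hm => hq (by
      rw [← T.2.quotientGroupMk_leftQuotientEquiv q, eq_comm, QuotientGroup.eq]; simpa using hm)
    rwa [mul_assoc] at this), k] at t1
  have hm : ((T.2.leftQuotientEquiv ((1 : N) : N ⧸ H) : N) : Γ) ∈ 𝐍 (zpowers c) := by
    have := T.2.quotientGroupMk_leftQuotientEquiv ((1 : N) : N ⧸ H)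
    rw [eq_comm, QuotientGroup.eq] at this
    simpa [H, mem_subgroupOf] using this
  have := conj_mem_of_norm (cent_zpowers c ▸ norm_le_norm_cent _ hm) t1
  exact mem_cent1.1 (by simpa [mul_assoc] using this)

/-- an invariant Hall subgroup -/
theorem Fp.hall (h : Fp K A) (s : Sol K) (π : Set ℕ) : ∃ Q, Hall π Q K ∧ A ≤ 𝐍 Q := by
  obtain ⟨Q, hQ⟩ := s.exists_hall π
  have nK : K ⊴ K ⊔ A := normalIn_sup_left h.norm
  obtain ⟨g, hg, e⟩ := h.fix (cv_of_sup (G := K) (le_sup_right.trans (hQ.frattini_sup s nK).ge)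
    (inf_le_left.trans nK.norm) le_rfl)
  refine ⟨cj g⁻¹ Q, hQ.cj_of_norm (le_norm_self K (inv_mem hg)), ?_⟩
  have := cj_mono g⁻¹ (e.trans inf_le_right)
  rwa [cj_norm, cj_inv_cj] at this

theorem Fp.cent_hall (h : Fp K A) (s : Sol K) (hU : U ⊴ K) (p : PiGrp {2} U) (hz : z ∈ U)
    (c : Cv K A (𝐂₁ z)) : ∃ Q, Hall {2}ᶜ Q K ∧ z ∈ 𝐂 Q := by
  obtain ⟨g, hg, e⟩ := h.fix c
  have h' := h.conj (le_norm_self K hg)
  obtain ⟨Q, hQ, n⟩ := h'.hall s {2}ᶜ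
  have m := n (h'.cent_le ⟨hU.le hz, le_cent1_iff.1 e⟩)
  refine ⟨Q, hQ, comm_eq_bot'.1 (eq_bot_mono (p.inf_eq_bot hQ.pi) (le_inf ?_
    (comm_le_left (zpowers_le.2 m)))) (mem_zpowers z)⟩
  exact (commutator_mono le_rfl (zpowers_le.2 hz)).trans (comm_le_right (hQ.le.trans hU.norm))

/-- a chief factor of order a power of two is central or has no invariant class -/
theorem Fp.dich (h : Fp K A) (s : Sol K) (hU : U ≤ K) (p : PiGrp {2} U) (m : MinN U (K ⊔ A)) :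
    Nf U K A ∨ K ≤ 𝐂 U := by
  have nK := le_sup_left.trans m.norm
  have nA := le_sup_right.trans m.norm
  refine or_iff_not_imp_right.2 fun nc => ⟨nA, h.norm, fun z hz _ c => by_contra fun z1 => ?_⟩
  obtain ⟨Q, hQ, zQ⟩ := h.cent_hall s ⟨hU, nK⟩ p hz c
  set C := K ⊓ 𝐂 U
  have nC : C ⊴ K := normalIn_inf_cent nK
  have aC : A ≤ 𝐍 C := norm_inf_cent h.norm nA
  obtain ⟨q, -, o⟩ := (s.qt C).exists_O_ne_bot fun e => nc (((qt_eq_bot nC.norm).1 e).trans inf_le_right)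
  set X := qp C (𝐎 {q} (qt C K))
  have nX : X ⊴ K := (O_normal _ _).qp_of_qt nC
  have aX : A ≤ 𝐍 X := norm_qp aC (le_norm_O _ (qt_norm C h.norm))
  have key : ∀ P, X ≤ C ⊔ P → P ≤ 𝐍 C → U ⊓ 𝐂 P ≠ ⊥ → False := fun P l n ne => by
    have : U ⊓ 𝐂 P ≤ U ⊓ 𝐂 X := le_inf inf_le_left (le_trans (le_cent_sup
      (inf_le_left.trans (cent_symm inf_le_right)) inf_le_right) (cent_anti l))
    have := (m.inf_eq_bot_or_le (norm_cent (sup_le nX.norm aX))).resolve_left (ne_bot_mono ne this)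
    exact o (qp_eq_self.1 (le_antisymm (le_inf nX.le (cent_symm this)) (le_qp _)))
  by_cases q2 : q = 2
  · subst q2
    obtain ⟨P, hP⟩ := exists_syl 2 X
    have := (hP.qt (nX.le.trans nC.norm)).eq_of_pi (by rw [qt_qp]; exact O_pi _ _)
    refine key P ((qt_le_qt_iff (nX.le.trans nC.norm) (hP.le.trans (nX.le.trans nC.norm))).1 this.ge)
      (hP.le.trans (nX.le.trans nC.norm)) (hP.pi.inf_cent_ne_bot p (hP.le.trans (nX.le.trans nK)) m.ne_bot)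
  · refine key Q ((qt_le_qt_iff (nX.le.trans nC.norm) (hQ.le.trans nC.norm)).1 ?_)
      (hQ.le.trans nC.norm) (ne_bot_of_mem ⟨hz, zQ⟩ z1)
    rw [qt_qp]
    exact (hQ.qt nC.norm).O_le' (by simpa using Ne.symm q2)

theorem tr_qt (h : Tr U x) (e : Abelem 2 U) (l : V ≤ U) (c : V ≤ 𝐂₁ x) : Tr (qt V U) (qe V x) := by
  have n : x ∈ 𝐍 V := cent_le_norm _ (le_cent1_iff.1 c)
  have m := e.abel.le_norm l
  have q : ⁅qt V U, zpowers (qe V x)⁆ = qt V ⁅U, zpowers x⁆ := by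
    rw [qt_comm m (zpowers_le.2 n), qt_zpowers n]
  refine ⟨qt_norm V (zpowers_le.2 h.n) (qe_mem_qt (mem_zpowers x) n), odd_qe n h.odd, ?_, ?_⟩
  · rw [q, card_qt_of_inf_bot ((cm_le h.n).trans m) (eq_bot_of_forall fun v hv =>
      cm_fix e h.n h.odd hv.2 (c hv.1))]
    exact h.big
  · intro a ha b hb a1 b1
    rw [q, mem_qt] at ha hb
    obtain ⟨a, ha, na, rfl⟩ := ha
    obtain ⟨b, hb, nb, rfl⟩ := hb
    obtain ⟨k, rfl⟩ := h.tr a ha b hb (fun q => a1 (by simp [q])) fun q => b1 (by simp [q])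
    exact ⟨k, by rw [qe_conj (pow_mem n k) na, qe_pow n]⟩

theorem not_tr_aux (m : ℕ) : ∀ {Γ : Type u} [Group Γ] [Finite Γ] {K A U : Subgroup Γ} {x : Γ},
    ♯U < m → Fp K A → Sol K → U ⊴ K → A ≤ 𝐍 U → Abelem 2 U → x ∈ K → ¬ Tr U x := by
  induction m with
  | zero => intros; omega
  | succ m ih =>
  intro Γ _ _ K A U x hm h s n a e hx t
  have U1 : U ≠ ⊥ := ne_bot_mono t.ne (cm_le t.n)
  obtain ⟨V, l, mV⟩ := exists_minN U1 (sup_le n.norm a)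
  have nK := le_sup_left.trans mV.norm
  have nA := le_sup_right.trans mV.norm
  rcases t.irr l (nK hx) with c | c
  · exact ih (by have := card_qt_lt ⟨l, e.abel.le_norm l⟩ mV.ne_bot; omega) (h.qt nK nA) (s.qt V)
      (n.qt V) (qt_norm V a) (e.qt V) (qe_mem_qt hx (nK hx)) (tr_qt t e l c)
  have q : ⁅V, zpowers x⁆ = ⁅U, zpowers x⁆ := le_antisymm (commutator_mono l le_rfl)
    ((comm_comm_eq (zpowers_le.2 t.n) (odd_cop t.odd e.pi) (.inr e.abel.sol)).ge.trans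
      (commutator_mono c le_rfl))
  rcases h.dich s (l.trans n.le) (e.pi.le l) mV with k | k
  · exact Odc.not_tr s k (e.le l) nK hx ⟨nK hx, t.odd, q ▸ t.big, q ▸ t.tr⟩
  · exact t.ne (q ▸ comm_eq_bot'.2 (zpowers_le.2 (k hx)))

theorem not_tr (h : Fp K A) (s : Sol K) (n : U ⊴ K) (a : A ≤ 𝐍 U) (e : Abelem 2 U) (hx : x ∈ K) :
    ¬ Tr U x := not_tr_aux _ (Nat.lt_succ_self _) h s n a e hx

theorem s4t (e : Abelem 2 U) (n : y ∈ 𝐍 U) (o : Odd (orderOf y)) (t : ¬ Tr U y)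
    (h : (𝐂₁ y).relIndex U ≤ 4) : y ∈ 𝐂 U := by
  by_contra c
  rw [← card_cm e.abel n] at h
  have k := fun a => four_orb (a := a) (cm_norm U y) o (fun v => cm_fix e n o) h
  obtain ⟨a, ha, a1⟩ := exists_mem_ne_one (H := ⁅U, zpowers y⁆) fun q =>
    c (comm_eq_bot'.1 q (mem_zpowers y))
  refine t ⟨n, o, by rw [(k a ha a1).1]; omega, fun a ha b hb a1 b1 => ?_⟩
  rcases (k a ha a1).2 b hb with q | q | q | q
  · exact absurd q b1
  · exact ⟨0, by simp [q]⟩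
  · exact ⟨1, by simp [q]⟩
  · exact ⟨2, by rw [q, pow_two]⟩

theorem s4e (h : Fp K A) (s : Sol K) (n : U ⊴ K) (a : A ≤ 𝐍 U) (e : Abelem 2 U) (hy : y ∈ K)
    (o : Odd (orderOf y)) (i : (𝐂₁ y).relIndex U ≤ 4) : y ∈ 𝐂 U :=
  s4t e (n.norm hy) o (not_tr h s n a e hy) i

theorem s4 (hK : Fp K A) (s : Sol K) (l : R ≤ K) (hR : A ≤ 𝐍 R) (r : PiGrp {2} R) (n : K ≤ 𝐍 R)
    {y : Γ} (hy : y ∈ K) (o : Odd (orderOf y)) (h : (𝐂₁ y).relIndex R ≤ 4) : y ∈ 𝐂 R := by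
  have k := le_norm_Phi n
  have a := le_norm_Phi hR
  have m := (Phi_normal R).norm
  have := s4e (hK.qt k a) (s.qt _) ⟨qt_mono _ l, qt_norm _ n⟩ (qt_norm _ hR)
    r.abelem_qt_Phi (qe_mem_qt hy (k hy)) (odd_qe (k hy) o)
    ((idx_qt m (k hy)).trans (le_trans (Nat.le_of_dvd (relIndex_pos _ _)
      ((relIndex_dvd_left R le_sup_right).trans (inf_relIndex_left R _).dvd)) h))
  exact cent_of_comm_le_Phi (zpowers_le.2 (n hy)) (odd_cop o r) (cm_le_of_qe m (k hy) this)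
    (mem_zpowers y)

theorem s4q (hK : Fp K A) (s : Sol K) (l : R ≤ K) (hR : A ≤ 𝐍 R) (r : PiGrp {2} R) (n : K ≤ 𝐍 R)
    {R2 : Subgroup Γ} (k : K ≤ 𝐍 R2) (a : A ≤ 𝐍 R2) (m : R ≤ 𝐍 R2) {y : Γ}
    (hy : y ∈ K) (o : Odd (orderOf y)) (h : (R2 ⊔ (R ⊓ 𝐂₁ y)).relIndex R ≤ 4) :
    ⁅R, zpowers y⁆ ≤ R2 :=
  cm_le_of_qe m (k hy) (s4 (hK.qt k a) (s.qt _) (qt_mono _ l) (qt_norm _ hR) (r.qt _) (qt_norm _ n)
    (qe_mem_qt hy (k hy)) (odd_qe (k hy) o) ((idx_qt m (k hy)).trans h))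

end CF.Anc
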