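import Cfsg.Agent.Anc.H2

/-! Good conjugations and the choice of the Baumann subgroup -/

set_option autoImplicit false

namespace CF.Anc
open Cfsg Subgroup CF.Loc CF.FF CF.Odc
open CF.PLocal (maxAb thompson_le le_thompson)
open scoped commutatorElement

universe u
variable {Γ : Type u} [Group Γ] {G A T M P Q S X Y K : Subgroup Γ} {g k m : Γ}

/-- the minimal counterexample together with the results on solvable invariant subgroups -/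
structure MX (G A T : Subgroup Γ) : Prop extends MC G A T where
  nf : ∀ E ≤ T, BG.Abelem 2 E → (𝐂(E)).relIndex (WW G T) ≤ (𝐂(WW G T)).relIndex E → E ≤ 𝐂(WW G T)
  fact : ∀ H, T ≤ H → H ≤ G → H ≠ G → A ≤ 𝐍(H) → H ≤ piCoreOf {2}ᶜ H ⊔ (H ⊓ 𝐍(WW G T))
  lemS : ∀ x ∈ MM G T, ¬ Tr (WW G T) x

variable [Finite Γ]

local notation "𝐌" => MM G T
local notation "𝐙" => Cfsg.omegaOneCenter 2 T

namespace MX
variable (h : MX G A T)
include h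

theorem isSyl : IsSyl 2 T G := isSyl_of_syl h.syl

omit [Finite Γ] h in
theorem MG : 𝐌 ≤ G := M_le G T

omit [Finite Γ] in
theorem TM : T ≤ 𝐌 := h.T_le_M

/-- invariant subgroups are not bad -/
theorem not_bad (h1 : Y ≠ ⊥) (h2 : Y ≤ T) (n : T ≤ 𝐍(Y)) (a : A ≤ 𝐍(Y)) : ¬ Bad G 𝐌 Y := by
  rintro ⟨g, hg, c⟩
  have pY := piG (h.pT.to_le h2)
  have YG := h2.trans h.syl.le
  have e := h.fact _ (le_inf h.syl.le n) inf_le_left (h.norm_ne YG pY h1)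
    (BG.norm_inf h.fp.norm (a.trans (BG.norm_le_norm_norm Y))) hg
  rw [sup_comm] at e
  obtain ⟨m, hm, o, ho, rfl⟩ := (mem_sup_of_le_normalizer'
    (inf_le_left.trans (BG.O_normal _ _).norm)).1 e
  exact c ⟨m, ⟨hm.1.1, hm.2⟩, by
    rw [inv_mul_cancel_left]; exact BG.O_norm_le_cent pY YG ho⟩

theorem gd_of_Z' (hg : g ∈ G) (h1 : P ≤ T) (h2 : cj[g] P ≤ T) (z : Gd 𝐌 𝐙 g⁻¹) : Gd 𝐌 P g := by
  obtain ⟨m, hm, c⟩ := z
  have ZT : 𝐙 ≤ T := omegaOneCenter_le 2 T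
  have TC : T ≤ G ⊓ 𝐂(𝐙) := le_inf h.syl.le (le_centralizer_omegaOneCenter 2 T)
  have ne : G ⊓ 𝐂(𝐙) ≠ G := fun e => h.norm_ne (ZT.trans h.syl.le) (piG (h.pT.to_le ZT)) h.Z_ne
    (le_antisymm inf_le_left (le_inf le_rfl (e.ge.trans (inf_le_right.trans
      (centralizer_le_normalizer _)))))
  have e := h.fact _ TC inf_le_left ne (BG.norm_inf_cent h.fp.norm
    (h.inv.trans (normalizer_le_normalizer_omegaOneCenter 2 T)))
    (inv_mem ⟨G.mul_mem (G.inv_mem (MG hm)) (G.inv_mem hg), c⟩)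
  have nO := (BG.O_normal {2}ᶜ (G ⊓ 𝐂(𝐙))).norm
  have pO := BG.O_pi {2}ᶜ (G ⊓ 𝐂(𝐙))
  generalize piCoreOf {2}ᶜ (G ⊓ 𝐂(𝐙)) = O at e nO pO
  obtain ⟨o, ho, c', hc', e1⟩ := (mem_sup_of_le_normalizer (inf_le_left.trans nO)).1 e
  have TO := TC.trans nO
  have hm1 : c' * m⁻¹ ∈ 𝐌 := mul_mem ⟨hc'.1.1, hc'.2⟩ (inv_mem hm)
  have e2 : g = o * (c' * m⁻¹) := by rw [← mul_assoc, e1]; group
  generalize c' * m⁻¹ = m1 at hm1 e2
  have l1 : cj[m1] P ≤ (O ⊓ 𝐌) ⊔ T := by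
    rw [← sup_inf_of_le_normalizer_right TO h.TM]
    refine le_inf ?_ (cj_le_of_mem hm1 (h1.trans h.TM))
    have : cj[m1] P = cj[o⁻¹] (cj[g] P) := by rw [← cj_mul, e2, inv_mul_cancel_left]
    rw [this]
    exact cj_le_of_mem (inv_mem (mem_sup_left ho)) (h2.trans le_sup_right)
  have nOM : T ≤ 𝐍(O ⊓ 𝐌) := le_normalizer_inf TO (h.TM.trans le_normalizer)
  obtain ⟨k, hk, l2⟩ := (h.isSyl.mono le_sup_right (sup_le (inf_le_right.trans MG) h.syl.le)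
    ).exists_cj_le (isPGroup_cj m1 (h.pT.to_le h1)) l1
  obtain ⟨t, ht, o', ho', rfl⟩ := (mem_sup_of_le_normalizer' nOM).1 (sup_comm (O ⊓ 𝐌) T ▸ hk)
  rw [cj_mul, cj_le_iff, cj_eq_self_of_mem (inv_mem ht), ← cj_mul] at l2
  refine ⟨o' * m1, mul_mem ho'.2 hm1, mem_centralizer_of_conj_eq fun x hx => ?_⟩
  have y1 := l2 (conj_mem_cj (o' * m1) hx)
  have y2 := h2 (conj_mem_cj g hx)
  have o2 : o * o'⁻¹ ∈ O := mul_mem ho (inv_mem ho'.1)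
  have e3 : g * x * g⁻¹ * (o' * m1 * x * (o' * m1)⁻¹)⁻¹ = 1 := by
    refine BG.eq_one_of_mem_bot ((piG h.pT).inf_eq_bot pO) (mem_inf.2 ⟨mul_mem y2 (inv_mem y1), ?_⟩)
    have := mul_mem o2 (conj_mem_of_mem_normalizer (TO y1) (inv_mem o2))
    rw [e2]
    convert this using 1
    group
  rw [mul_inv_eq_one] at e3
  calc (o' * m1)⁻¹ * g * x * ((o' * m1)⁻¹ * g)⁻¹ = (o' * m1)⁻¹ * (g * x * g⁻¹) * (o' * m1) := by group
    _ = x := by rw [e3]; group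

theorem gd_of_Z (hg : g ∈ G) (h1 : P ≤ T) (h2 : cj[g] P ≤ T) (z : Gd 𝐌 𝐙 g) : Gd 𝐌 P g :=
  (h.gd_of_Z' (inv_mem hg) h2 (by rwa [cj_inv_cj]) (by rwa [inv_inv])).inv'

/-- the graded form of the conjugation family argument -/
theorem alp {P₀ : Subgroup Γ}
    (H : ∀ Y ≤ T, 𝐙 ≤ Y → (∃ m ∈ 𝐌, cj[m] P₀ ≤ Y) → ¬ Bad G 𝐌 Y) :
    ∀ P, (∃ m ∈ 𝐌, cj[m] P₀ ≤ P) → P ≤ T → ∀ g ∈ G, cj[g] P ≤ T → Gd 𝐌 P g := by
  intro P
  induction' hn : Nat.card T - Nat.card P using Nat.strong_induction_on with n ih generalizing P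
  intro hK hP g hg hgP
  have IH : ∀ Q : Subgroup Γ, Nat.card P < Nat.card Q → (∃ m ∈ 𝐌, cj[m] P₀ ≤ Q) → Q ≤ T → ∀ g ∈ G,
      cj[g] Q ≤ T → Gd 𝐌 Q g := fun Q a b c =>
    ih _ (by have := card_le_card_of_le c; omega) Q rfl b c
  rcases hP.eq_or_lt with rfl | lt
  · exact gd_of_mem (normT_le_M G P ⟨hg, mem_normalizer_of_cj_le hgP⟩)
  have TG := h.syl.le
  obtain ⟨S, hS, l1⟩ := exists_isSyl_ge (h.pT.to_le inf_le_left) (inf_le_inf_right 𝐍(P) TG)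
  obtain ⟨k, hk, l2⟩ := h.isSyl.exists_cj_le hS.isPGroup (hS.le.trans inf_le_left)
  have lt1 := lt_inf_normalizer h.pT lt
  obtain ⟨m₀, hm₀, l0⟩ := hK
  have g1 : Gd 𝐌 P k := (IH _ (card_lt_card_of_lt lt1) ⟨m₀, hm₀, l0.trans lt1.le⟩ inf_le_left k hk
    ((cj_mono k l1).trans l2)).mono lt1.le
  have hS' := hS.cj k
  rw [cj_inf, cj_eq_self_of_mem hk, cj_normalizer] at hS'
  have PT : cj[k] P ≤ T := (cj_mono k (lt1.le.trans l1)).trans l2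
  have K' : ∃ m ∈ 𝐌, cj[m] P₀ ≤ cj[k] P := by
    obtain ⟨m, hm, c⟩ := g1
    exact ⟨m * m₀, mul_mem hm hm₀, by rw [cj_mul, Odc.cj_eq_of_cent c le_rfl]; exact cj_mono m l0⟩
  have cP : Nat.card ↥(cj[k] P) = Nat.card P := card_cj k P
  have sN : IsSyl 2 (T ⊓ 𝐍(cj[k] P)) (G ⊓ 𝐍(cj[k] P)) := by
    have := hS'.eq_of_le (h.pT.to_le inf_le_left) (le_inf l2 (hS'.le.trans inf_le_right))
      (inf_le_inf_right _ TG)
    rwa [← this] at hS'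
  have key : ∀ n ∈ G ⊓ 𝐍(cj[k] P), Gd 𝐌 (cj[k] P) n := by
    generalize cj[k] P = P' at PT K' cP sN
    intro n hn
    by_cases c : T ⊓ 𝐂(P') ≤ P'
    · exact gd_of_not_bad (H P' PT ((le_inf (omegaOneCenter_le 2 T) ((omegaOneCenter_le_centralizer
        2 T).trans (centralizer_anti PT))).trans c) K') hn.1 hn.2
    have nC : G ⊓ 𝐍(P') ≤ 𝐍(G ⊓ 𝐂(P')) := le_normalizer_inf (inf_le_left.trans le_normalizer)
      (le_normalizer_centralizer inf_le_right)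
    have sC := sN.inf_of_le_normalizer (inf_le_inf_left G (centralizer_le_normalizer _)) nC
    have eC : T ⊓ 𝐍(P') ⊓ (G ⊓ 𝐂(P')) = T ⊓ 𝐂(P') := le_antisymm (inf_le_inf inf_le_left inf_le_right)
      (le_inf (inf_le_inf_left _ (centralizer_le_normalizer _)) (inf_le_inf_right _ TG))
    rw [eC] at sC
    obtain ⟨n', hn', c', hc', rfl⟩ := sC.frattini' (nC hn)
    have n1 : n' ∈ G ⊓ 𝐍(P') := by
      have := mul_mem hn (inv_mem ⟨hc'.1, centralizer_le_normalizer _ hc'.2⟩)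
      rwa [mul_inv_cancel_right] at this
    have n2 : n' ∈ 𝐍(P' ⊔ (T ⊓ 𝐂(P'))) := normalizer_inf_normalizer_le_normalizer_sup _ _ ⟨n1.2, hn'⟩
    obtain ⟨m, hm, l⟩ := K'
    have g2 := (IH (P' ⊔ (T ⊓ 𝐂(P'))) (cP ▸ card_lt_card_of_lt (left_lt_sup.2 c))
      ⟨m, hm, l.trans le_sup_left⟩ (sup_le PT inf_le_left) n' n1.1
      (by rw [cj_eq_self n2]; exact sup_le PT inf_le_left)).mono le_sup_left
    refine (gd_of_cent hc'.2).mul ?_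
    rwa [cj_eq_self (centralizer_le_normalizer _ hc'.2)]
  have lt2 : cj[g] P < T := hgP.lt_of_ne fun e => (card_lt_card_of_lt lt).ne (by rw [← e, card_cj])
  have lt3 := lt_inf_normalizer h.pT lt2
  have e1 : cj[k * g⁻¹] (cj[g] P) = cj[k] P := by rw [cj_mul, cj_inv_cj]
  have l3 : cj[k * g⁻¹] (T ⊓ 𝐍(cj[g] P)) ≤ G ⊓ 𝐍(cj[k] P) := by
    rw [cj_inf, cj_normalizer, e1]
    exact inf_le_inf_right _ (cj_le_of_mem (mul_mem hk (inv_mem hg)) TG)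
  obtain ⟨n, hn', l4⟩ := sN.exists_cj_le (isPGroup_cj _ (h.pT.to_le inf_le_left)) l3
  rw [← cj_mul] at l4
  have e2 : cj[n * (k * g⁻¹)] (cj[g] P) = cj[k] P := by rw [cj_mul, e1, cj_eq_self hn'.2]
  have l5 : cj[k] P < cj[n * (k * g⁻¹)] (T ⊓ 𝐍(cj[g] P)) := e2 ▸ cj_lt_cj_iff.2 lt3
  obtain ⟨m, hm, l⟩ := K'
  have g3 := (IH _ (cP ▸ card_lt_card_of_lt l5) ⟨m, hm, l.trans l5.le⟩ (l4.trans inf_le_left) _
    (inv_mem (mul_mem hn'.1 (mul_mem hk (inv_mem hg)))) (by rw [cj_inv_cj]; exact inf_le_left)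
    ).mono l5.le
  have g4 : Gd 𝐌 P (n * k) := g1.mul (key n hn')
  have g5 := g4.mul (k := (n * (k * g⁻¹))⁻¹) (by rwa [cj_mul, cj_eq_self hn'.2])
  rwa [show (n * (k * g⁻¹))⁻¹ * (n * k) = g by group] at g5

end MX

/-- the selected subgroup -/
structure Sel (G A T S : Subgroup Γ) : Prop extends MX G A T where
  le : S ≤ T
  ss : SS G T S
  mx : ∀ S', SS G T S' → wt S' ≤ wt S

theorem MX.exists_sel (h : MX G A T) (c : ¬ SCl G T) : ∃ S, Sel G A T S := by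
  have ne : ∃ S, SS G T S := by_contra fun e => c fun w hw g hg ht => by
    obtain ⟨m, hm, d⟩ := h.alp (P₀ := ⊥) (fun Y a b _ d => e ⟨T ⊓ 𝐍(Y), inf_le_left.trans h.TM,
      h.pT.to_le inf_le_left, Y, le_inf a le_normalizer, ⟨1, one_mem _, by rwa [cj_one]⟩,
        inf_le_right, d⟩) (zpowers w) ⟨1, one_mem _, by rw [cj_bot]; exact bot_le⟩
      (zpowers_le.2 (W_le G T hw)) g hg (by rw [cj_zpowers]; exact zpowers_le.2 ht)
    rw [conj_eq_of_cent d (mem_zpowers w)]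
    exact conj_mem_of_mem_normalizer (M_norm G T hm) hw
  obtain ⟨S₀, s, mx⟩ := Set.exists_max_image {S | SS G T S} wt (Set.toFinite _) ne
  obtain ⟨m, hm, ST⟩ := (h.isSyl.mono h.TM (M_le G T)).exists_cj_le s.2.1 s.1
  exact ⟨_, h, ST, s.cj hm, fun S' a => by rw [wt_cj]; exact mx S' a⟩

namespace Sel
variable (h : Sel G A T S)
include h

local notation "𝐁₀" => Cfsg.baumannSubgroupOf 2 S

theorem BT : 𝐁₀ ≤ T := (baumann_le 2 S).trans h.le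

theorem pS : IsPGroup 2 S := h.ss.2.1

theorem pB : IsPGroup 2 𝐁₀ := h.pS.to_le (baumann_le 2 S)

theorem BG : 𝐁₀ ≤ G := h.BT.trans h.syl.le

theorem wa {S' : Subgroup Γ} (s : SS G T S') (l : cj[m] 𝐁₀ ≤ S') :
    𝐁[2](S') = cj[m] 𝐁₀ ∧ Nat.card S' ≤ Nat.card S := by
  rw [cj_baumann] at l ⊢
  have := of_wt l (by rw [wt_cj]; exact h.mx S' s)
  rwa [card_cj] at this

theorem wa' {S' : Subgroup Γ} (s : SS G T S') (l : 𝐁₀ ≤ S') :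
    𝐁[2](S') = 𝐁₀ ∧ Nat.card S' ≤ Nat.card S := of_wt l (h.mx S' s)

theorem ZS : 𝐙 ≤ S := by
  obtain ⟨a, b, Y, c, d, e, f⟩ := h.ss
  have l : S ⊔ 𝐙 ≤ T := sup_le h.le (omegaOneCenter_le 2 T)
  have := (h.wa' ⟨l.trans h.TM, h.pT.to_le l, Y, c.trans le_sup_left, d, sup_le e
    ((omegaOneCenter_le_centralizer 2 T).trans (centralizer_le_normalizer_of_le (c.trans h.le))), f⟩
    ((baumann_le 2 S).trans le_sup_left)).2
  exact le_sup_right.trans (eq_of_le_of_card_le le_sup_left this).ge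

theorem ZJ : 𝐙 ≤ 𝐉[2](S) := Z_le_J h.ZS h.le

theorem ZB : 𝐙 ≤ 𝐁₀ := Z_le_B h.ZS h.le

/-- subgroups normalized by a larger `2`-group are not bad -/
theorem not_bad_of_lt {N : Subgroup Γ} (h1 : 𝐙 ≤ Y) (h2 : Y ≤ N) (h3 : 𝐁₀ ≤ N) (h4 : N ≤ T)
    (c : Nat.card S < Nat.card N) (n : N ≤ 𝐍(Y)) : ¬ Bad G 𝐌 Y := fun b =>
  c.not_ge (h.wa' ⟨h4.trans h.TM, h.pT.to_le h4, Y, h2, ⟨1, one_mem _, by rwa [cj_one]⟩, n, b⟩ h3).2

theorem not_bad_char (h1 : 𝐙 ≤ Y) (h2 : Y ≤ S) (n : 𝐍(S) ≤ 𝐍(Y)) : ¬ Bad G 𝐌 Y := by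
  rcases h.le.eq_or_lt with e | lt
  · subst e
    exact h.not_bad (BG.ne_bot_mono h.Z_ne h1) h2 (le_normalizer.trans n) (h.inv.trans n)
  · have l := lt_inf_normalizer h.pT lt
    exact h.not_bad_of_lt h1 (h2.trans l.le) ((baumann_le 2 S).trans l.le) inf_le_left
      (card_lt_card_of_lt l) (inf_le_right.trans n)

theorem not_bad_B : ¬ Bad G 𝐌 𝐁₀ := h.not_bad_char h.ZB (baumann_le 2 S) (norm_baumann 2 S)

theorem not_bad_J : ¬ Bad G 𝐌 𝐉[2](S) := h.not_bad_char h.ZJ (thompson_le 2 S) (norm_thompson 2 S)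

/-- all conjugations on overgroups of `B₀` are good -/
theorem gd (hg : g ∈ G) (h0 : 𝐁₀ ≤ P) (h1 : P ≤ T) (h2 : cj[g] P ≤ T) : Gd 𝐌 P g := by
  refine h.alp (P₀ := 𝐁₀) ?_ P ⟨1, one_mem _, by rwa [cj_one]⟩ h1 g hg h2
  rintro Y a b ⟨m, hm, c⟩ d
  have l : Y ≤ T ⊓ 𝐍(Y) := le_inf a le_normalizer
  have e := (h.wa ⟨inf_le_left.trans h.TM, h.pT.to_le inf_le_left, Y, l,
    ⟨1, one_mem _, by rwa [cj_one]⟩, inf_le_right, d⟩ (c.trans l)).1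
  have e' : 𝐁[2](Y) = cj[m] 𝐁₀ := e ▸ baumann_eq (e ▸ c) l
  obtain ⟨g, hg, f⟩ := d
  refine f (h.gd_of_Z hg.1 a (by rwa [cj_eq_self hg.2]) ?_)
  exact (gd_of_not_bad (fun k => h.not_bad_B (k.of_cj (M_le G T) hm)) hg.1
    (e' ▸ norm_baumann 2 Y hg.2)).mono (e' ▸ Z_le_B b a)

/-- `2`-subgroups of normalizers of bad subgroups -/
theorem wd {S' : Subgroup Γ} (a : Y ≤ T) (b : 𝐙 ≤ Y) (d : Bad G 𝐌 Y) (p : IsPGroup 2 S')
    (l0 : S' ≤ G) (l1 : 𝐁₀ ≤ S') (l2 : Y ≤ S') (l3 : S' ≤ 𝐍(Y)) :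
    𝐁[2](S') = 𝐁₀ ∧ Nat.card S' ≤ Nat.card S := by
  obtain ⟨k, hk, l⟩ := h.isSyl.exists_cj_le p l0
  have g1 := h.gd hk le_rfl h.BT ((cj_mono k l1).trans l)
  obtain ⟨m, hm, c⟩ := h.gd_of_Z hk a ((cj_mono k l2).trans l) (g1.mono h.ZB)
  obtain ⟨m', hm', c'⟩ := g1
  have := h.wa (m := k) ⟨l.trans h.TM, isPGroup_cj k p, _, cj_mono k l2, ⟨m, hm, by
    rw [Odc.cj_eq_of_cent c le_rfl]; exact cj_mono m b⟩, cj_normalizer k Y ▸ cj_mono k l3, by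
    rw [Odc.cj_eq_of_cent c le_rfl]; exact d.cj (M_le G T) hm⟩ (cj_mono k l1)
  rwa [← cj_baumann, cj_inj, card_cj] at this

/-- a centric bad subgroup -/
theorem exists_Q : ∃ Q ≤ S, 𝐙 ≤ Q ∧ S ≤ 𝐍(Q) ∧ Bad G 𝐌 Q ∧ S ⊓ 𝐂(Q) ≤ Q ∧ IsSyl 2 S (G ⊓ 𝐍(Q)) := by
  have SG := h.le.trans h.syl.le
  obtain ⟨a, b, Y, c, d, e, f⟩ := h.ss
  have sy : IsSyl 2 S (G ⊓ 𝐍(Y)) := ⟨le_inf SG e, b, fun S' p l1 l2 => by
    obtain ⟨k, hk, l⟩ := h.isSyl.exists_cj_le p (l2.trans inf_le_left)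
    have lB := (baumann_le 2 S).trans l1
    have g1 := h.gd hk (baumann_le 2 S) h.le ((cj_mono k l1).trans l)
    obtain ⟨m, hm, c'⟩ := g1
    obtain ⟨n, hn, d⟩ := d
    have := (h.wa (m := k) ⟨l.trans h.TM, isPGroup_cj k p, _, cj_mono k (c.trans l1),
      ⟨m * n, mul_mem hm hn, by rw [Odc.cj_eq_of_cent c' c, cj_mul]; exact cj_mono m d⟩,
      cj_normalizer k Y ▸ cj_mono k (l2.trans inf_le_right), by
      rw [Odc.cj_eq_of_cent c' c]; exact f.cj (M_le G T) hm⟩ (cj_mono k lB)).2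
    rw [card_cj] at this
    exact (eq_of_le_of_card_le l1 this).symm⟩
  have nC : G ⊓ 𝐍(Y) ≤ 𝐍(G ⊓ 𝐂(Y)) := le_normalizer_inf (inf_le_left.trans le_normalizer)
    (le_normalizer_centralizer inf_le_right)
  have sC := sy.inf_of_le_normalizer (inf_le_inf_left G (centralizer_le_normalizer _)) nC
  rw [← inf_assoc, inf_eq_left.2 SG] at sC
  have z : 𝐙 ≤ Y ⊔ (S ⊓ 𝐂(Y)) := le_sup_of_le_right (le_inf h.ZS
    ((omegaOneCenter_le_centralizer 2 T).trans (centralizer_anti (c.trans h.le))))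
  have l : Y ⊔ (S ⊓ 𝐂(Y)) ≤ S := sup_le c inf_le_left
  have n : S ≤ 𝐍(Y ⊔ (S ⊓ 𝐂(Y))) :=
    le_normalizer_sup e (le_normalizer_inf le_normalizer (le_normalizer_centralizer e))
  have bd : Bad G 𝐌 (Y ⊔ (S ⊓ 𝐂(Y))) := by
    obtain ⟨g, hg, f⟩ := f
    obtain ⟨n', hn', c', hc', rfl⟩ := sC.frattini' (nC hg)
    have n1 : n' ∈ G ⊓ 𝐍(Y) := by
      have := mul_mem hg (inv_mem ⟨hc'.1, centralizer_le_normalizer _ hc'.2⟩)
      rwa [mul_inv_cancel_right] at this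
    refine ⟨n', ⟨n1.1, normalizer_inf_normalizer_le_normalizer_sup _ _ ⟨n1.2, hn'⟩⟩, fun k => f ?_⟩
    refine (gd_of_cent hc'.2).mul ?_
    rw [cj_eq_self (centralizer_le_normalizer _ hc'.2)]
    exact k.mono le_sup_left
  refine ⟨_, l, z, n, bd, le_sup_of_le_right (inf_le_inf_left _ (centralizer_anti le_sup_left)),
    le_inf SG n, b, fun S' p l1 l2 => (eq_of_le_of_card_le l1 (h.wd (l.trans h.le) z bd p
      (l2.trans inf_le_left) ((baumann_le 2 S).trans l1) (l.trans l1) (l2.trans inf_le_right)).2).symm⟩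

end Sel

end CF.Anc
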