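import Cfsg.Agent.Anc.N1

/-! Rank one blocks over the Baumann subgroup -/

set_option autoImplicit false

namespace CF.Anc
open Cfsg Subgroup CF.Loc CF.FF CF.Odc
open CF.PLocal (maxAb thompson_le le_thompson upT)
open scoped commutatorElement MatrixGroups

universe u
variable {Γ : Type u} [Group Γ] {G A T M P Q S X Y K B L V L' Q' N : Subgroup Γ} {g k m n : Γ}
  {F : Type} [Field F] {ρ ρ' : Γ → SL(2, F)} {ψ ψ' : Γ → Fin 2 → F}

namespace Nd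
variable (h : Nd F B L Q ρ ψ)
include h

variable [Finite Γ]

section Pair
variable (h' : Nd F B L' Q' ρ' ψ') (c : ¬ UU L' Q' ≤ Q)
include h' c

end Pair

end Nd

local notation "𝐌" => MM G T
local notation "𝐙" => Cfsg.omegaOneCenter 2 T
local notation "𝐁₀" => Cfsg.baumannSubgroupOf 2 S

variable [Finite Γ]

/-- the selected subgroup with a block over its Baumann subgroup -/
structure SN (G A T S L Q : Subgroup Γ) (F : Type) [Field F] (ρ : Γ → SL(2, F)) (ψ : Γ → Fin 2 → F) : Prop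
    extends Sel G A T S where
  nd : Nd F 𝐁[2](S) L Q ρ ψ
  LG : L ≤ G
  bad : ∃ g ∈ L, ¬ Gd (MM G T) 𝛀[2](T) g
  com : ∀ s ∈ S, cj[s] (UU L Q) ≤ 𝐂(UU L Q)

theorem Sel.nb_of_lt (h : Sel G A T S) (h1 : 𝐁₀ ≤ N) (h2 : N ≤ 𝐍(𝐁₀)) (h3 : N ≤ T) (c : Nat.card S < Nat.card N) :
    NB G T S N := ⟨h1, h2, h3.trans le_normalizer, (h3.trans h.syl.le).trans le_normalizer, fun _ a b n => h.not_bad_of_lt a (b.trans h1) h1 h3 c n⟩

theorem Sel.nb_lt (h : Sel G A T S) (c : S ≠ T) : NB G T S (T ⊓ 𝐍(𝐁₀)) :=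
  h.nb_of_lt (le_inf h.BT le_normalizer) inf_le_right inf_le_left (card_lt_card_of_lt
    ((lt_inf_normalizer h.pT (h.le.lt_of_ne c)).trans_le (inf_le_inf_left _ (norm_baumann 2 S))))

theorem Sel.nb_eq (h : Sel G A T T) : NB G T T (T ⊔ A) :=
  ⟨h.BT.trans le_sup_left, (sup_le le_normalizer h.inv).trans (norm_baumann 2 T), sup_le le_normalizer h.inv,
    sup_le (h.syl.le.trans le_normalizer) h.fp.norm, fun _ a b n =>
    h.not_bad (BG.ne_bot_mono h.Z_ne a) (b.trans h.BT) (le_sup_left.trans n) (le_sup_right.trans n)⟩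

theorem Sel.exists_nb (h : Sel G A T S) : ∃ N, NB G T S N := by
  by_cases e : S = T
  · subst e; exact ⟨_, h.nb_eq⟩
  · exact ⟨_, h.nb_lt e⟩

namespace SN
variable (h : SN G A T S L Q F ρ ψ)
include h

theorem bad_of (h1 : 𝐙 ≤ Y) (h2 : L ≤ 𝐍(Y)) : Bad G 𝐌 Y :=
  let ⟨g, hg, c⟩ := h.bad; ⟨g, ⟨h.LG hg, h2 hg⟩, fun k => c (k.mono h1)⟩

theorem ZC (hX : X ≤ T) : 𝐙 ≤ 𝐂(X) := (omegaOneCenter_le_centralizer 2 T).trans (centralizer_anti hX)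

theorem ZQ : 𝐙 ≤ Q := h.nd.le_Q h.ZB (h.ZC (h.nd.UB.trans h.BT))

theorem ZV : 𝐙 ≤ 𝛀[2](Q) := le_omegaOneCenter (isElemAb_omegaOneCenter 2 T) h.ZQ (h.ZC (h.nd.le.trans h.BT))

theorem not_cent : ¬ 𝐙 ≤ 𝐂(L) := fun e =>
  let ⟨_, hg, c⟩ := h.bad; c (gd_of_cent (le_centralizer_comm.1 e hg))

/-- overgroups of `UZ` in `Q` are bad -/
theorem bad_of_le (h0 : 𝐙 ≤ Y) (h1 : UU L Q ≤ Y) (h2 : Y ≤ Q) (h3 : 𝐁₀ ≤ 𝐍(Y)) : Bad G 𝐌 Y :=
  h.bad_of h0 (h.nd.norm_of h1 h2 h3)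

/-- existence of partners -/
theorem partner (k : NB G T S N) : ∃ n ∈ N, ¬ UU (cj[n] L) (cj[n] Q) ≤ Q := by
  by_contra c
  push Not at c
  have l : ncl (UU L Q) N ⊔ 𝐙 ≤ Q := sup_le (ncl_le_iff.2 fun n hn => cj_UU n L Q ▸ c n hn) h.ZQ
  have n : N ≤ 𝐍(ncl (UU L Q) N ⊔ 𝐙) := le_normalizer_sup (le_normalizer_ncl _ _)
    (k.nT.trans (normalizer_le_normalizer_omegaOneCenter 2 T))
  exact k.nb _ le_sup_right (l.trans h.nd.le) n
    (h.bad_of_le le_sup_right ((le_ncl _ _).trans le_sup_left) l (k.le.trans n))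

end SN

end CF.Anc
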