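import Cfsg.Agent.Anc.A

/-! Anticentral elements: existence of the minimal supplement -/

set_option autoImplicit false

namespace CF.Anc
open Subgroup CF.BG
open CF.Odc (Cv Nf cv_of_le cv_of_sup)
open scoped commutatorElement Pointwise

variable {Γ : Type*} [Group Γ] {G A D E F L P X : Subgroup Γ} {x : Γ}

/-- the class of `x` in `X` is the coset `G x` -/
structure Cls (G X : Subgroup Γ) (x : Γ) : Prop where
  nrm : G ⊴ X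
  into : ∀ h ∈ X, h * x * h⁻¹ * x⁻¹ ∈ G
  onto : ∀ g ∈ G, ∃ h ∈ X, h * x * h⁻¹ = g * x

theorem Cls.cnt (c : Cls G X x) (hx : x ∈ E) :
    {h | h ∈ X ∧ h * x * h⁻¹ ∈ E}.ncard = ♯(G ⊓ E : Subgroup Γ) * ♯(X ⊓ 𝐂₁ x : Subgroup Γ) := by
  choose! s hs using c.onto
  have k : ∀ g ∈ G, ∀ a ∈ 𝐂₁ x, s g * a * x * (s g * a)⁻¹ = g * x := fun g hg a ha => by
    rw [← (hs _ hg).2, mul_assoc (s g), mem_cent1.1 ha]; group
  rw [← Nat.card_coe_set_eq, ← Nat.card_prod]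
  refine (Nat.card_congr (Equiv.ofBijective (fun p : (G ⊓ E : Subgroup Γ) × (X ⊓ 𝐂₁ x : Subgroup Γ) =>
    (⟨s p.1 * p.2, mul_mem (hs _ p.1.2.1).1 p.2.2.1, (k _ p.1.2.1 _ p.2.2.2).symm ▸ mul_mem p.1.2.2 hx⟩ :
      {h | h ∈ X ∧ h * x * h⁻¹ ∈ E})) ⟨?_, ?_⟩)).symm
  · rintro ⟨⟨g, hg⟩, ⟨a, ha⟩⟩ ⟨⟨g', hg'⟩, ⟨a', ha'⟩⟩ e
    have e : s g * a = s g' * a' := congrArg Subtype.val e
    obtain rfl : g = g' := mul_right_cancel ((k g hg.1 a ha.2).symm.trans (e ▸ k g' hg'.1 a' ha'.2))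
    obtain rfl : a = a' := mul_left_cancel e
    rfl
  · rintro ⟨h, hh, e⟩
    have m := c.into h hh
    refine ⟨⟨⟨_, m, E.mul_mem e (inv_mem hx)⟩, ⟨(s (h * x * h⁻¹ * x⁻¹))⁻¹ * h,
      X.mul_mem (inv_mem (hs _ m).1) hh, mem_cent1.2 ?_⟩⟩, Subtype.ext (mul_inv_cancel_left _ _)⟩
    have := (hs _ m).2
    rw [inv_mul_cancel_right] at this
    generalize s (h * x * h⁻¹ * x⁻¹) = t at this
    calc _ = t⁻¹ * (h * x * h⁻¹) * h := by group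
      _ = _ := by rw [← this]; group

variable [Finite Γ]

theorem Cls.card (c : Cls G X x) (hx : x ∈ X) : ♯X = ♯G * ♯(X ⊓ 𝐂₁ x : Subgroup Γ) := by
  have := c.cnt hx
  rw [inf_eq_left.2 c.nrm.le] at this
  rw [← this, ← Nat.card_coe_set_eq]
  exact Nat.card_congr (Equiv.subtypeEquivRight fun h =>
    ⟨fun k => ⟨k, mul_mem (mul_mem k hx) (inv_mem k)⟩, fun k => k.1⟩)

theorem Cls.uni (c : Cls G X x) (hx : x ∈ E) (e : G ⊔ E = X) :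
    {h | h ∈ X ∧ h * x * h⁻¹ ∈ E} = E := by
  have l : E ≤ X := le_sup_right.trans e.le
  have e2 := card_sup_mul_card_inf (H := G) (K := E) (.inr (l.trans c.nrm.norm))
  rw [e, c.card (l hx), mul_assoc] at e2
  refine (Set.eq_of_subset_of_ncard_le (s := (E : Set Γ)) (t := {h | h ∈ X ∧ h * x * h⁻¹ ∈ E})
    (fun h k => ⟨l k, mul_mem (mul_mem k hx) (inv_mem k)⟩) ?_).symm
  rw [c.cnt hx, mul_comm, Nat.eq_of_mul_eq_mul_left (card_pos' G) e2, ← Nat.card_coe_set_eq]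
  rfl

theorem Cls.inf (c : Cls G X x) (hx : x ∈ E) (e : G ⊔ E = X) (hx' : x ∈ F) (e' : G ⊔ F = X) :
    G ⊔ (E ⊓ F) = X := by
  have l : E ⊓ F ≤ X := inf_le_left.trans (le_sup_right.trans e.le)
  have e1 : {h | h ∈ X ∧ h * x * h⁻¹ ∈ E ⊓ F} = (E ⊓ F : Subgroup Γ) := by
    rw [coe_inf, ← c.uni hx e, ← c.uni hx' e']
    exact Set.ext fun h => ⟨fun k => ⟨⟨k.1, k.2.1⟩, k.1, k.2.2⟩, fun k => ⟨k.1.1, k.1.2, k.2.2⟩⟩
  have e2 := card_sup_mul_card_inf (H := G) (K := E ⊓ F) (.inr (l.trans c.nrm.norm))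
  have e3 := c.cnt (E := E ⊓ F) ⟨hx, hx'⟩
  rw [e1, ← Nat.card_coe_set_eq] at e3
  rw [show ♯(E ⊓ F : Subgroup Γ) = _ from e3, mul_comm (♯(G ⊓ (E ⊓ F) : Subgroup Γ)), ← mul_assoc,
    ← c.card (l ⟨hx, hx'⟩)] at e2
  exact eq_of_le_of_card_ge (sup_le c.nrm.le l)
    (Nat.eq_of_mul_eq_mul_right (card_pos' _) e2).ge

theorem Cls.ex_ac (c : Cls G X x) (hx : x ∈ X) : ∃ D, D ≤ X ∧ Ac G D x := by
  obtain ⟨D, l, ⟨hD, e⟩, m⟩ := exists_minimal (P := fun D => x ∈ D ∧ G ⊔ D = X)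
    ⟨hx, sup_eq_right.2 c.nrm.le⟩
  have n := l.trans c.nrm.norm
  have k : ∀ E, Cv G D E → G ⊔ (E ⊓ X) = X := fun E v =>
    le_antisymm (sup_le c.nrm.le inf_le_right) (e.ge.trans (sup_le le_sup_left fun d hd => by
      obtain ⟨g, hg, q⟩ := v d hd
      have := mul_mem (mem_sup_left (T := E ⊓ X) (inv_mem hg))
        (mem_sup_right ⟨q, mul_mem (c.nrm.le hg) (l hd)⟩)
      rwa [inv_mul_cancel_left] at this))
  refine ⟨D, l, n, hD, e ▸ c.onto, fun E hE v => ?_, fun E lE h hh q => ?_⟩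
  · exact (m (D ⊓ (E ⊓ X)) ⟨⟨hD, hE, hx⟩, c.inf (F := E ⊓ X) hD e ⟨hE, hx⟩ (k E v)⟩ inf_le_left).ge.trans
      (inf_le_right.trans inf_le_left)
  · rw [e] at hh
    exact ((c.uni (E := E ⊓ X) ⟨lE hD, hx⟩ (k E (cv_of_le lE))).le
      ⟨hh, q, X.mul_mem (mul_mem hh hx) (inv_mem hh)⟩).1

/-- existence of the minimal supplement -/
theorem ex_ac (n : L ≤ 𝐍 G) (hx : x ∈ L) (c : ∀ g ∈ G, ∃ h ∈ G ⊔ L, h * x * h⁻¹ = g * x) :
    ∃ D, D ≤ G ⊔ L ∧ Ac G D x := by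
  have nG : G ⊔ L ≤ 𝐍 G := sup_le (le_norm_self G) n
  let X : Subgroup Γ :=
    { carrier := {h | h ∈ G ⊔ L ∧ h * x * h⁻¹ * x⁻¹ ∈ G}
      one_mem' := ⟨one_mem _, by simpa using one_mem G⟩
      mul_mem' := fun {a b} ha hb => ⟨mul_mem ha.1 hb.1, by
        have := mul_mem (conj_mem_of_norm (nG ha.1) hb.2) ha.2
        convert this using 1; group⟩
      inv_mem' := fun {a} ha => ⟨inv_mem ha.1, by
        have := conj_mem_of_norm' (nG ha.1) (inv_mem ha.2)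
        convert this using 1; group⟩ }
  have l : X ≤ G ⊔ L := fun _ h => h.1
  obtain ⟨D, k, h⟩ := Cls.ex_ac (G := G) (X := X) (x := x) ⟨⟨fun g hg => ⟨mem_sup_left hg, by
      have := mul_mem hg (conj_mem_of_norm (n hx) (inv_mem hg))
      convert this using 1; group⟩, l.trans nG⟩, fun _ h => h.2, fun g hg =>
    let ⟨h, hh, e⟩ := c g hg
    ⟨h, ⟨hh, by rwa [e, mul_inv_cancel_right]⟩, e⟩⟩ ⟨mem_sup_right hx, by simpa using one_mem G⟩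
  exact ⟨D, k.trans l, h⟩

omit [Finite Γ] in
theorem Fp.r_inv (h : Fp G A) (e : G ⊔ ((G ⊔ A) ⊓ 𝐍 P) = G ⊔ A) : ∃ g ∈ G, A ≤ 𝐍 (cj g P) := by
  have nG : G ⊔ A ≤ 𝐍 G := sup_le (le_norm_self G) h.norm
  obtain ⟨g, hg, l⟩ := h.fix ((cv_of_sup (le_sup_right.trans e.ge) (inf_le_left.trans nG)
    le_rfl).mono le_rfl inf_le_right)
  refine ⟨g⁻¹, inv_mem hg, ?_⟩
  rwa [← cj_norm, ← cj_le_iff]

theorem Fp.r_syl (h : Fp G A) (p : ℕ) : ∃ P, Syl p P G ∧ A ≤ 𝐍 P := by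
  obtain ⟨P, hP⟩ := BG.exists_syl p G
  obtain ⟨g, hg, n⟩ := h.r_inv (hP.syl_frattini_sup ⟨le_sup_left, sup_le (le_norm_self G) h.norm⟩)
  exact ⟨_, cj_of_mem hg ▸ hP.cj g, n⟩

theorem Fp.r_hall (h : Fp G A) (s : Sol G) (π : Set ℕ) : ∃ P, Hall π P G ∧ A ≤ 𝐍 P := by
  obtain ⟨P, hP⟩ := s.exists_hall π
  obtain ⟨g, hg, n⟩ := h.r_inv (hP.frattini_sup s ⟨le_sup_left, sup_le (le_norm_self G) h.norm⟩)
  exact ⟨_, cj_of_mem hg ▸ hP.cj g, n⟩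

end CF.Anc
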