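import Cfsg.Agent.Anc.B
import Cfsg.Agent.BG.Sec6

/-! Anticentral elements: no failure of factorization modules -/

set_option autoImplicit false
set_option linter.unusedSectionVars false

namespace CF.Anc
open Subgroup CF.BG CF.Odc
open CF.Loc (Hol bar hat piV)
open CF.FF (pb ib)
open scoped commutatorElement

universe u
variable {Γ : Type u} [Group Γ] [Finite Γ] {A E F K T V W : Subgroup Γ} {y t a k : Γ}

/-- a faithful module without normal `2`-subgroups -/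
structure FM (K W A : Subgroup Γ) : Prop where
  fk : Fp K A
  sol : Sol K
  aW : A ≤ 𝐍 W
  fx : ∀ z ∈ W, Cv K A (𝐂₁ z) → z ∈ 𝐂 (𝐅 K)
  s4 : ∀ y ∈ K, Odd (orderOf y) → (𝐂₁ y).relIndex W ≤ 4 → y ∈ 𝐂 W
  e : Abelem 2 W
  n : K ≤ 𝐍 W
  f : K ⊓ 𝐂 W = ⊥
  o : 𝐎 {2} K = ⊥

omit [Finite Γ] in
theorem mem_zp (tt : t * t = 1) (h : a ∈ zpowers t) : a = 1 ∨ a = t := by
  obtain ⟨k, rfl⟩ := h
  have : t ^ (2 : ℤ) = 1 := by rw [zpow_two, tt]
  rcases Int.even_or_odd' k with ⟨j, rfl | rfl⟩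
  · exact .inl (by simp only [zpow_mul, this, one_zpow])
  · exact .inr (by simp only [zpow_add, zpow_mul, this, one_zpow, one_mul, zpow_one])

theorem nil_le (n : Nil F) (l : V ≤ F) (h : F ≤ ⁅F, F⁆ ⊔ V) : F ≤ V := by
  by_contra c
  obtain ⟨M, a, b, m⟩ := exists_maximal (P := fun M => M < F) (lt_of_le_not_ge l c)
  have nM : F ≤ 𝐍 M := by
    have := n.lt_inf_norm b
    by_contra q
    exact this.ne' (m _ (lt_of_le_of_ne inf_le_left fun e => q (e.ge.trans inf_le_right)) this.le)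
  refine b.not_ge ((qt_eq_bot nM).1 ((n.sol.qt M).eq_bot_of_le_der ?_))
  rw [← qt_comm nM nM, qt_le_qt_iff nM ((der_le F).trans nM), sup_comm]
  exact h.trans (sup_le_sup_left a _)

namespace FM
variable (h : FM K W A)
include h

theorem F_odd : PiGrp {2}ᶜ (𝐅 K) := by
  have := (F_nil K).hall_O {2}
  rw [O_F, h.o] at this
  exact this.pi'_of_eq_bot

theorem odd (hy : y ∈ 𝐅 K) : Odd (orderOf y) := pi_odd (h.F_odd.elt hy)

theorem pi_idx (X : Subgroup Γ) (hV : V ≤ W) : PiNat {2} (X.relIndex V) :=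
  PiNat.dvd (h.e.pi.le hV) (relIndex_dvd_card X V)

theorem big (hy : y ∈ K) (o : Odd (orderOf y)) (y1 : y ≠ 1) : 8 ≤ ♯⁅W, zpowers y⁆ := by
  rw [card_cm h.e.abel (h.n hy)]
  refine two_mul_le (m := 4) (piNat_pow_self Nat.prime_two 2) (h.pi_idx _ le_rfl) (by omega) ?_
  by_contra! c
  exact y1 (eq_one_of_mem_bot h.f ⟨hy, h.s4 y hy o c⟩)

theorem big3 (hy : y ∈ K) (o : PiElt {3} y) (y1 : y ≠ 1) : 16 ≤ ♯⁅W, zpowers y⁆ := by
  have o2 : Odd (orderOf y) := pi_odd (o.of_single' (by simp))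
  have h1 := h.big hy o2 y1
  have h2 := BG2.card_modEq_card_cent Nat.prime_three (piGrp_zpowers.2 o) (norm_comm_right W _)
  rw [h.e.abel.comm_inf_cent (zpowers_le.2 (h.n hy)) (odd_cop o2 h.e.pi), card_bot] at h2
  refine two_mul_le (m := 8) (piNat_pow_self Nat.prime_two 3) (h.e.pi.le (cm_le (h.n hy)))
    (by omega) (lt_of_le_of_ne h1 fun e => ?_)
  rw [← e] at h2
  exact absurd h2 (by decide)

theorem fix (hy : y ∈ K) (o : Odd (orderOf y)) (y1 : y ≠ 1) (hE : E ≤ K) (k : PiGrp {2} E)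
    (n : E ≤ 𝐍 (zpowers y)) : ∃ v ∈ ⁅W, zpowers y⁆, v ∈ 𝐂 E ∧ v ∉ 𝐂₁ y := by
  obtain ⟨v, hv, v1⟩ := exists_mem_ne_one (k.inf_cent_ne_bot (h.e.pi.le (cm_le (h.n hy)))
    (norm_commutator (hE.trans h.n) n) (one_lt_card.1 (by have := h.big hy o y1; omega)))
  exact ⟨v, hv.1, hv.2, fun c => v1 (cm_fix h.e (h.n hy) o hv.1 c)⟩

theorem hyp (hE : E ≤ K) (e : Abelem 2 E) (ht : t ∈ E) (t1 : t ≠ 1) : ∃ F y, Hy K E F y ∧ t ∉ F := by
  have tt := sq1 e ht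
  obtain ⟨m, hm⟩ : ∃ m, logn 2 (♯E) = m + 1 :=
    Nat.exists_eq_succ_of_ne_zero (e.pi.logn_pos.2 (ne_bot_of_mem ht t1)).ne'
  have el : Elem 2 (m + 1) E K := hm ▸ e.elem hE
  have : ¬ 𝐅 K ≤ 𝐂₁ t := fun c => t1 ((piElt_of_pow_eq_one Nat.prime_two (e.pow t ht)).eq_one
    (h.F_odd.elt (h.sol.cent_F_le ⟨hE ht, le_cent1_iff.1 c⟩)))
  obtain ⟨F, hF, hc⟩ : ∃ F, Elem 2 m F E ∧ ¬ 𝐅 K ⊓ 𝐂 F ≤ 𝐂₁ t := by
    by_contra! c
    exact this (el.le_of_cent (hE.trans (F_normal K).norm) h.F_odd c)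
  obtain ⟨c, hc, ct⟩ := SetLike.not_le_iff_exists.1 hc
  obtain ⟨hc, cF⟩ := mem_inf.1 hc
  have tF : t ∉ F := fun q => ct (cent_le_cent1 q cF)
  have cy : F ≤ 𝐂₁ ⁅c, t⁆ := by
    have : t ∈ 𝐂 F := e.abel.cent le_rfl hF.le ht
    exact le_cent1_iff.2 (mul_mem (mul_mem (mul_mem cF this) (inv_mem cF)) (inv_mem this))
  have ty : t * ⁅c, t⁆ * t⁻¹ = ⁅c, t⁆⁻¹ := by
    simp only [commutatorElement_def, mul_inv_rev, inv_inv, inv_eq_of_mul_eq_one_right tt]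
    calc _ = t * c * t * c⁻¹ * (t * t) := by group
      _ = _ := by rw [tt]; group
  refine ⟨F, ⁅c, t⁆, ⟨hF.le, by rw [el.card, hF.card, pow_succ'], ?_, fun q => ct (mem_cent1.2
    (commutatorElement_eq_one_iff_mul_comm.1 q)), cy, fun a ha aF => ?_⟩, tF⟩
  · have := mul_mem hc (conj_mem_of_norm ((F_normal K).norm (hE ht)) (inv_mem hc))
    rwa [← mul_assoc, ← mul_assoc] at this
  · have i2 : (F.subgroupOf E).index = 2 := (el.relIndex hF).trans (pow_one 2)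
    have : a * t ∈ F := (mul_mem_iff_of_index_two i2 (a := ⟨a, ha⟩) (b := ⟨t, ht⟩)).2
      ⟨fun q => absurd q aF, fun q => absurd q tF⟩
    have k := mem_cent1.1 (cy this)
    calc _ = a * (t * t) * ⁅c, t⁆ * (a * (t * t))⁻¹ := by rw [tt, mul_one]
      _ = a * t * (t * ⁅c, t⁆ * t⁻¹) * (a * t)⁻¹ := by simp only [mul_assoc, mul_inv_rev]
      _ = (a * t * ⁅c, t⁆ * (a * t)⁻¹)⁻¹ := by rw [ty]; simp only [mul_assoc, mul_inv_rev, inv_inv]
      _ = _ := by rw [k, mul_inv_cancel_right]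

theorem step (hE : E ≤ K) (e : Abelem 2 E) (H : Hy K E F y) (ht : t ∈ E) (tF : t ∉ F) :
    (𝐂₁ y).relIndex (𝐂 F ⊓ W) ≤ (𝐂 E).relIndex (𝐂 F ⊓ W) * (𝐂 E).relIndex (𝐂 F ⊓ W) ∧
      2 ≤ (𝐂 E).relIndex (𝐂 F ⊓ W) ∧
      (𝐂 E).relIndex (𝐂 F ⊓ W) * (𝐂 F).relIndex W = (𝐂 E).relIndex W := by
  have hy := F_le K H.mem
  have cy : y ∈ 𝐂 F := le_cent1_iff.1 H.c
  have h1 := inv_idx (V := 𝐂 F ⊓ W) (norm_inf (zpowers_le.2 (le_norm_self _ cy))
    (zpowers_le.2 (h.n hy)) (mem_zpowers y)) (h.odd H.mem) (sq1 e ht) (H.i t ht tF)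
  have h2 : (𝐂₁ t).relIndex (𝐂 F ⊓ W) ≤ (𝐂 E).relIndex (𝐂 F ⊓ W) :=
    Nat.le_of_dvd (relIndex_pos _ _) (relIndex_dvd_left _ (cent_le_cent1 ht))
  have h3 := h1.trans (Nat.mul_le_mul h2 h2)
  refine ⟨h3, ?_, by rw [relIndex_inf_mul_relIndex, inf_eq_left.2 (cent_anti H.le)]⟩
  obtain ⟨v, hv, v1, v2⟩ := h.fix hy (h.odd H.mem) H.ne (H.le.trans hE) (e.pi.le H.le)
    (norm_of_cent (cent_zpowers y ▸ H.c))
  have h4 : (𝐂₁ y).relIndex (𝐂 F ⊓ W) ≠ 1 := fun q =>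
    v2 (relIndex_eq_one.1 q ⟨v1, cm_le (h.n hy) hv⟩)
  have := relIndex_pos (𝐂₁ y) (𝐂 F ⊓ W)
  by_contra! c
  nlinarith [Nat.le_of_lt_succ c, lt_of_le_of_ne this h4.symm]

theorem nf (E : Subgroup Γ) : E ≤ K → Abelem 2 E → (𝐂 E).relIndex W ≤ ♯E → E = ⊥ := by
  induction E using card_induction with
  | h E ih =>
    intro hE e c
    by_contra E1
    obtain ⟨t, ht, t1⟩ := exists_mem_ne_one E1
    obtain ⟨F, y, H, tF⟩ := h.hyp hE e ht t1
    obtain ⟨h1, h2, h3⟩ := h.step hE e H ht tF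
    have := card_pos' F
    have h4 := H.card
    by_cases F1 : F = ⊥
    · subst F1
      rw [cent_bot, top_inf_eq, ← card_cm h.e.abel (h.n (F_le K H.mem))] at h1
      have := h.big (F_le K H.mem) (h.odd H.mem) H.ne
      rw [card_bot] at h4
      nlinarith
    have h5 := two_mul_le (e.pi.le H.le) (h.pi_idx (𝐂 F) le_rfl) this.ne'
      (not_le.1 fun q => F1 (ih F (by omega) (H.le.trans hE) (e.le H.le) q))
    nlinarith

theorem step1 (hE : E ≤ K) (e : Abelem 2 E) (H : Hy K E F y) (ht : t ∈ E) (tF : t ∉ F)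
    (c : (𝐂 E).relIndex W ≤ 2 * ♯E) (b : 2 < ♯E) :
    (𝐂₁ y).relIndex (𝐂 F ⊓ W) ≤ 4 ∧ (𝐂 F).relIndex W = ♯E := by
  obtain ⟨h1, h2, h3⟩ := h.step hE e H ht tF
  have h4 := H.card
  have h5 := two_mul_le (e.pi.le H.le) (h.pi_idx (𝐂 F) le_rfl) (card_ne_zero' F)
    (not_le.1 fun q => one_lt_card.1 (by omega) (h.nf F (H.le.trans hE) (e.le H.le) q))
  have h6 : (𝐂 E).relIndex (𝐂 F ⊓ W) ≤ 2 := by nlinarith
  exact ⟨by nlinarith, by nlinarith⟩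

theorem four1 (hE : E ≤ K) (e : Abelem 2 E) (c : (𝐂 E).relIndex W ≤ 8) (b : ♯E = 4) (ht : t ∈ E)
    (t1 : t ≠ 1) : ∃ a ∈ E, a ≠ 1 ∧ a ≠ t ∧ ∃ y ∈ 𝐅 K, y ≠ 1 ∧ y ^ 3 = 1 ∧ a ∈ 𝐂₁ y ∧
      (∀ b ∈ E, b ≠ 1 → b ≠ a → b * y * b⁻¹ = y⁻¹) ∧ ♯⁅W, zpowers a⁆ = 4 ∧ ♯⁅W, zpowers y⁆ = 16 ∧
      ⁅W, zpowers a⁆ ≤ ⁅W, zpowers y⁆ ∧ y ∈ 𝐍 ⁅W, zpowers a⁆ := by
  obtain ⟨F, y, H, tF⟩ := h.hyp hE e ht t1
  obtain ⟨h1, h2⟩ := h.step1 hE e H ht tF (by omega) (by omega)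
  have h3 : ♯F = 2 := by have := H.card; omega
  obtain ⟨a, ha, a1⟩ := exists_mem_ne_one (H := F) (one_lt_card.1 (by omega))
  obtain rfl := zpowers_eq_of_prime (h3 ▸ Nat.prime_two) ha a1
  have hy := F_le K H.mem
  have o := h.odd H.mem
  have aE := H.le ha
  have na := h.n (hE aE)
  have ny := h.n hy
  have ay : a ∈ 𝐂₁ y := H.c ha
  rw [cent_zpowers] at h1 h2
  rw [b] at h2
  have nV : y ∈ 𝐍 (⁅W, zpowers y⁆ ⊓ 𝐂₁ a) := norm_inf (norm_comm_right W _)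
    (zpowers_le.2 (le_norm_self _ (mem_cent1_comm.1 ay))) (mem_zpowers y)
  have fV : ∀ v ∈ ⁅W, zpowers y⁆ ⊓ 𝐂₁ a, v ∈ 𝐂₁ y → v = 1 := fun v hv => cm_fix h.e ny o hv.1
  have cV : ♯(⁅W, zpowers y⁆ ⊓ 𝐂₁ a) ≤ 4 := by
    rw [← relIndex_of_inf_bot (K := 𝐂₁ y) (eq_bot_of_forall fun v hv => fV v hv.2 hv.1)]
    exact (relIndex_le_of_le_right (le_inf inf_le_right (inf_le_left.trans (cm_le ny)))
      (relIndex_ne_zero' _ _)).trans h1
  have orb := fun v => four_orb (a := v) nV o fV cV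
  have fx := fun z (hz : z ∈ zpowers y) z1 => h.fix (zpowers_le.2 hy hz)
    (o.of_dvd_nat (orderOf_dvd_of_mem_zpowers hz)) z1 (H.le.trans hE) (e.pi.le H.le)
    (norm_of_cent (cent_mono (cent_zpowers y ▸ H.c) le_rfl (zpowers_le.2 hz)))
  have y3 : y ^ 3 = 1 := by
    by_contra q
    obtain ⟨v, hv, v1, v2⟩ := fx _ (pow_mem (mem_zpowers y) 3) q
    have hV : v ∈ ⁅W, zpowers y⁆ ⊓ 𝐂₁ a := ⟨commutator_mono le_rfl
      (zpowers_le.2 (pow_mem (mem_zpowers y) 3)) hv, cent_zpowers a ▸ v1⟩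
    have v0 : v ≠ 1 := fun q => v2 (q ▸ one_mem _)
    rcases (orb v hV v0).2 _ (conj_mem_of_norm (pow_mem nV 3) hV) with k | k | k | k
    · exact v0 (conj_eq_one_iff.1 k)
    · exact v2 (mem_cent1.2 (mul_inv_eq_iff_eq_mul.1 k).symm)
    · refine v0 (fV v hV (cent1_sq o ▸ mem_cent1.2 ?_))
      calc _ = y⁻¹ * (y * v * y⁻¹) * y ^ 3 := by simp [mul_assoc, pow_succ]
        _ = _ := by rw [← k]; simp [mul_assoc, pow_succ]
    · refine v0 (fV v hV (mem_cent1.2 ?_))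
      calc _ = (y * y)⁻¹ * (y * y * v * (y * y)⁻¹) * y ^ 3 := by simp [mul_assoc, pow_succ]
        _ = _ := by rw [← k]; simp [mul_assoc, pow_succ]
  obtain ⟨v, hv, v1, v2⟩ := fx _ (mem_zpowers y) H.ne
  have c4 := (orb v ⟨hv, cent_zpowers a ▸ v1⟩ fun q => v2 (q ▸ one_mem _)).1
  have c5 := card_inf_mul_relIndex (𝐂₁ a) ⁅W, zpowers y⁆
  rw [inf_comm, c4] at c5
  have c6 := h.big3 hy (piElt_of_pow_eq_one Nat.prime_three y3) H.ne
  have c7 : (𝐂₁ a).relIndex ⁅W, zpowers y⁆ ≤ 4 :=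
    (relIndex_le_of_le_right (cm_le ny) (relIndex_ne_zero' _ _)).trans h2.le
  have na' : a ∈ 𝐍 ⁅W, zpowers y⁆ := norm_commutator (zpowers_le.2 na)
    (norm_of_cent (cent_zpowers y ▸ H.c)) (mem_zpowers a)
  have c8 : ♯⁅W, zpowers a⁆ = 4 := by rw [card_cm h.e.abel na, h2]
  have c9 : ⁅W, zpowers a⁆ ≤ ⁅W, zpowers y⁆ := by
    refine (eq_of_card_le (commutator_mono (cm_le ny) le_rfl) ?_).ge.trans (cm_le na')
    rw [c8, card_cm (h.e.abel.mono (cm_le ny)) na']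
    omega
  refine ⟨a, aE, a1, fun q => tF (q ▸ ha), y, H.mem, H.ne, y3, ay, fun b hb b1 ba => H.i b hb fun q => ?_,
    c8, by omega, c9, ?_⟩
  · exact absurd (three_le q ha b1 a1 ba) (by omega)
  · rwa [eq_of_card_eq (le_inf c9 ((cm_cent h.e na (sq1 e aE)).trans inf_le_right)) (c8.trans c4.symm)]

theorem card_pair (ha : a ∈ K) (hy : y ∈ K) (c : ♯⁅W, zpowers a⁆ = 4) :
    ♯(⁅W, zpowers a⁆ ⊔ cj y ⁅W, zpowers a⁆) * ♯(⁅W, zpowers a⁆ ⊓ cj y ⁅W, zpowers a⁆) = 16 := by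
  rw [card_sup_mul_card_inf (Or.inl (norm_of_cent (h.e.abel.cent (cm_le (h.n ha))
    (cj_le_of_norm (h.n hy) (cm_le (h.n ha)))))), card_cj, c]

theorem four (hE : E ≤ K) (e : Abelem 2 E) (c : (𝐂 E).relIndex W ≤ 8) (b : ♯E = 4) : False := by
  obtain ⟨t, ht, t1⟩ := exists_mem_ne_one (H := E) (one_lt_card.1 (by omega))
  obtain ⟨a, ha, a1, -, y, hy, y1, y3, ay, iy, ca, cy, ly, ny⟩ := h.four1 hE e c b ht t1
  obtain ⟨a', ha', a1', aa, y', hy', y1', y3', -, iy', ca', cy', ly', -⟩ := h.four1 hE e c b ha a1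
  have full : ∀ {a y}, a ∈ E → y ∈ 𝐅 K → a * y * a⁻¹ = y⁻¹ → ♯⁅W, zpowers a⁆ = 4 →
      ♯⁅W, zpowers y⁆ = 16 → ⁅W, zpowers y⁆ = ⁅W, zpowers a⁆ ⊔ cj y ⁅W, zpowers a⁆ := by
    intro a y ha hy i ca cy
    refine eq_of_card_le (inv_cm (h.n (hE ha)) (h.n (F_le K hy)) (h.odd hy) (sq1 e ha) i) ?_
    have := h.card_pair (hE ha) (F_le K hy) ca
    have := card_pos' (⁅W, zpowers a⁆ ⊓ cj y ⁅W, zpowers a⁆)
    nlinarith
  have f1 := full ha' hy (iy a' ha' a1' aa) ca' cy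
  have f2 := full ha hy' (iy' a ha a1 aa.symm) ca cy'
  have w1 := cm_le (h.n (F_le K hy))
  have w2 := cm_le (h.n (F_le K hy'))
  have h1 : ⁅W, zpowers a⁆ < ⁅W, zpowers y⁆ ⊓ ⁅W, zpowers y'⁆ := by
    refine lt_of_le_of_ne (le_inf ly (f2 ▸ le_sup_left)) fun q => ?_
    have := eq_of_card_eq ((le_inf (f1 ▸ le_sup_left) ly').trans q.ge) (ca'.trans ca.symm)
    rw [this, cj_of_norm ny, sup_idem] at f1
    rw [f1] at cy
    omega
  have h2 := two_mul_le (h.e.pi.le (cm_le (h.n (hE ha)))) (h.e.pi.le (inf_le_left.trans w1))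
    (card_ne_zero' _) (card_lt h1)
  have h3 := card_sup_mul_card_inf (Or.inl (norm_of_cent (h.e.abel.cent w1 w2)))
  set U := ⁅W, zpowers y⁆ ⊔ ⁅W, zpowers y'⁆
  have hU : U ≤ W := sup_le w1 w2
  have hP : zpowers y ⊔ zpowers y' ≤ 𝐎 {3} (𝐅 K) := sup_le
    (zpowers_le.2 ((F_nil K).mem_O hy (piElt_of_pow_eq_one Nat.prime_three y3)))
    (zpowers_le.2 ((F_nil K).mem_O hy' (piElt_of_pow_eq_one Nat.prime_three y3')))
  set P := zpowers y ⊔ zpowers y'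
  have p3 : PiGrp {3} P := (O_pi _ _).le hP
  have PK : P ≤ K := hP.trans ((O_le _ _).trans (F_le K))
  have PM : P ≤ centMod W U :=
    sup_le (zpowers_le.2 (mem_cM hU le_sup_left)) (zpowers_le.2 (mem_cM hU le_sup_right))
  have nP := PM.trans (centMod_le_norm _ _)
  have h4 := BG2.card_modEq_card_cent Nat.prime_three p3 nP
  rw [eq_bot_mono (h.e.abel.comm_inf_cent (PK.trans h.n)
    (PiNat.coprime' (p3.of_single_ne (by decide)) h.e.pi)) (inf_le_inf_right _ (sup_le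
      (commutator_mono le_rfl le_sup_left) (commutator_mono le_rfl le_sup_right))), card_bot] at h4
  have h5 : ♯U ≤ 16 := by
    by_contra! q
    have := two_mul_le (piNat_pow_self Nat.prime_two 4) (h.e.pi.le hU) (by omega) q
    rw [show ♯U = 32 by nlinarith] at h4
    exact absurd h4 (by decide)
  have rg : Reg U P := reg_of_forall fun k hk k1 v hv q => by
    have := eq_of_card_le (of_cM (PM hk)) (h5.trans (h.big3 (PK hk) (p3.elt hk) k1))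
    exact cm_fix h.e (h.n (PK hk)) (pi_odd ((p3.elt hk).of_single' (by simp))) (this ▸ hv)
      (mem_cent1.2 q.symm)
  have h6 := rg.card_dvd nP
  rw [le_antisymm h5 (cy ▸ card_le le_sup_left)] at h6
  have h7 : zpowers y < P := lt_of_le_of_ne le_sup_left fun q => by
    have k : y' ∈ 𝐂₁ a := zpowers_le.2 (mem_cent1_comm.1 ay) (q.ge (mem_sup_right (mem_zpowers y')))
    have k2 := iy' a ha a1 aa.symm
    rw [← mem_cent1.1 k, mul_inv_cancel_right, eq_inv_iff_mul_eq_one] at k2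
    rw [pow_succ, pow_two, k2, one_mul] at y3'
    exact y1' y3'
  have h8 := card_lt h7
  rw [Nat.card_zpowers, orderOf_eq_of_pow Nat.prime_three y3 y1] at h8
  obtain ⟨i, hi⟩ := p3.card_pow
  rw [hi] at h6 h8
  have : 3 ^ 2 ∣ 3 ^ i := pow_dvd_pow 3 ((Nat.pow_lt_pow_iff_right (a := 3) (m := i) (n := 1) (by omega)).1 h8)
  exact absurd (this.trans h6) (by decide)

theorem f1 (E : Subgroup Γ) : E ≤ K → Abelem 2 E → (𝐂 E).relIndex W ≤ 2 * ♯E → ♯E ≤ 2 := by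
  induction E using card_induction with
  | h E ih =>
    intro hE e c
    by_contra! b
    obtain ⟨t, ht, t1⟩ := exists_mem_ne_one (H := E) (one_lt_card.1 (by omega))
    obtain ⟨F, y, H, tF⟩ := h.hyp hE e ht t1
    have h1 := (h.step1 hE e H ht tF c b).2
    have h2 := H.card
    have := ih F (by omega) (H.le.trans hE) (e.le H.le) (by omega)
    exact h.four hE e (by omega) (by omega)

theorem t4a (ha : a ∈ K) (hy : y ∈ K) (o : Odd (orderOf y)) (y1 : y ≠ 1) (tt : a * a = 1)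
    (i : a * y * a⁻¹ = y⁻¹) (c : (𝐂₁ a).relIndex W = 4) : W ⊓ 𝐂₁ y ≤ 𝐂₁ a := by
  intro v hv
  by_contra q
  have h1 : ⁅v, a⁆ ∈ 𝐂₁ y := by
    have := mul_mem hv.2 (conj_mem_of_norm (cent_zpowers y ▸ norm_le_norm_cent _ (inv_norm i))
      (inv_mem (mem_inf.1 hv).2))
    rwa [← mul_assoc, ← mul_assoc] at this
  have h2 : ⁅v, a⁆ ≠ 1 := fun k => q (mem_cent1.2 (commutatorElement_eq_one_iff_mul_comm.1 k))
  have h3 : ⁅v, a⁆ ∈ ⁅W, zpowers a⁆ ⊓ cj y ⁅W, zpowers a⁆ := ⟨cm_mem hv.1, mem_cj.2 (by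
    rw [mul_assoc, mem_cent1.1 h1, inv_mul_cancel_left]; exact cm_mem hv.1)⟩
  have h4 := h.card_pair ha hy ((card_cm h.e.abel (h.n ha)).trans c)
  have h5 := one_lt_card.2 (ne_bot_of_mem h3 h2)
  have h6 := h.big hy o y1
  have := eq_of_card_le (inv_cm (h.n ha) (h.n hy) o tt i) (by nlinarith)
  exact h2 (cm_fix h.e (h.n hy) o (this ▸ mem_sup_left h3.1) h1)

theorem cm_sub (ha : a ∈ K) (hy : y ∈ K) (o : Odd (orderOf y)) (y1 : y ≠ 1) (tt : a * a = 1)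
    (i : a * y * a⁻¹ = y⁻¹) (c : (𝐂₁ a).relIndex W = 4) : ⁅W, zpowers a⁆ ≤ ⁅W, zpowers y⁆ := by
  have n : a ∈ 𝐍 ⁅W, zpowers y⁆ :=
    norm_commutator (zpowers_le.2 (h.n ha)) (zpowers_le.2 (inv_norm i)) (mem_zpowers a)
  refine (cm_le_iff n).2 fun w hw => ?_
  obtain ⟨r, hr, v, hv, vy, rfl⟩ := cm_dec h.e (h.n hy) o hw
  have := mem_cent1.1 (h.t4a ha hy o y1 tt i c ⟨hv, vy⟩)
  rw [show ⁅r * v, a⁆ = r * (v * a) * v⁻¹ * r⁻¹ * a⁻¹ by simp only [commutatorElement_def]; group,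
    this, show r * (a * v) * v⁻¹ * r⁻¹ * a⁻¹ = ⁅r, a⁆ by simp only [commutatorElement_def]; group]
  exact cm_le n (cm_mem hr)

section pair
variable (hE : E ≤ K) (e : Abelem 2 E) (ht : t ∈ E) (ha : a ∈ E) (c : (𝐂₁ t).relIndex W = 4)
  (d : (𝐂₁ a).relIndex W = 4) (ne : a ≠ t)
include hE e ht ha c d ne

theorem big_pair : 8 < (𝐂 (zpowers t ⊔ zpowers a)).relIndex W := by
  have ne1 : ∀ {a : Γ}, (𝐂₁ a).relIndex W = 4 → a ≠ 1 := fun c q => by simp [q] at c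
  have hX : zpowers t ⊔ zpowers a ≤ E := sup_le (zpowers_le.2 ht) (zpowers_le.2 ha)
  have h6 : 2 < ♯(zpowers t ⊔ zpowers a) := three_le (mem_sup_left (mem_zpowers t))
    (mem_sup_right (mem_zpowers a)) (ne1 c) (ne1 d) ne.symm
  have h7 := two_mul_le (piNat_self Nat.prime_two) (e.pi.le hX) two_ne_zero h6
  by_contra! q
  exact absurd (h.f1 _ (hX.trans hE) (e.le hX) (by omega)) (by omega)

theorem no_inv (hy : y ∈ 𝐅 K) (i : t * y * t⁻¹ = y⁻¹) (j : a * y * a⁻¹ = y⁻¹) : y = 1 := by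
  by_contra y1
  have o := h.odd hy
  have hy := F_le K hy
  have hX : zpowers t ⊔ zpowers a ≤ E := sup_le (zpowers_le.2 ht) (zpowers_le.2 ha)
  have h1 : W ⊓ 𝐂₁ y ≤ 𝐂 (zpowers t ⊔ zpowers a) := by
    rw [cent_sup, cent_zpowers, cent_zpowers]
    exact le_inf (h.t4a (hE ht) hy o y1 (sq1 e ht) i c) (h.t4a (hE ha) hy o y1 (sq1 e ha) j d)
  obtain ⟨v, hv, v1, v2⟩ := h.fix hy o y1 (hX.trans hE) (e.pi.le hX)
    (sup_le (zpowers_le.2 (inv_norm i)) (zpowers_le.2 (inv_norm j)))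
  have h7 := h.big_pair hE e ht ha c d ne
  set X := zpowers t ⊔ zpowers a
  have h2 := inv_idx (h.n hy) o (sq1 e ht) i
  have h3 := relIndex_inf_mul_relIndex (𝐂₁ y) (𝐂 X) W
  rw [← inf_relIndex_right (𝐂₁ y ⊓ 𝐂 X), inf_right_comm,
    inf_eq_left.2 ((inf_comm (𝐂₁ y) W).le.trans h1), inf_relIndex_right (𝐂₁ y)] at h3
  have h4 : (𝐂₁ y).relIndex (𝐂 X ⊓ W) ≠ 1 := fun q =>
    v2 (relIndex_eq_one.1 q ⟨v1, cm_le (h.n hy) hv⟩)
  have h5 := lt_of_le_of_ne (relIndex_pos (𝐂₁ y) (𝐂 X ⊓ W)) h4.symm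
  rw [c] at h2
  nlinarith

theorem Y_cent : ⁅𝐅 K, zpowers t⁆ ≤ 𝐂₁ a := by
  set Y := ⁅𝐅 K, zpowers t⁆
  have nF := hE.trans (F_normal K).norm
  have YF : Y ≤ 𝐅 K := cm_le (nF ht)
  have ta := e.abel.mul_comm ht ha
  have tt := sq1 e ht
  have hX : zpowers t ⊔ zpowers a ≤ E := sup_le (zpowers_le.2 ht) (zpowers_le.2 ha)
  have nY : E ≤ 𝐍 Y := norm_commutator nF (e.abel.le_norm (zpowers_le.2 ht))
  have cp := fun {X} (l : X ≤ E) => PiNat.coprime (e.pi.le l) (h.F_odd.le YF)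
  have k1 : Y ⊓ 𝐂₁ t ≤ ⁅Y, Y⁆ := by
    rw [← cent_zpowers]
    exact inf_cent_le_der (norm_comm_right _ _) (cp (zpowers_le.2 ht)) (comm_comm_eq
      (zpowers_le.2 (nF ht)) (PiNat.coprime (e.pi.le (zpowers_le.2 ht)) h.F_odd)
      (.inl (abel_zpowers t).sol)).ge
  have k2 : Y ⊓ 𝐂₁ (t * a) ≤ Y ⊓ 𝐂₁ t := fun v hv => ⟨hv.1, by
    have ty : t * ⁅v, t⁆ * t⁻¹ = ⁅v, t⁆⁻¹ := by
      simp only [commutatorElement_def, mul_inv_rev, inv_inv, inv_eq_of_mul_eq_one_right tt]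
      calc _ = t * v * t * v⁻¹ * (t * t) := by group
        _ = _ := by rw [tt]; group
    have m : t ∈ 𝐂₁ (t * a) := mem_cent1.2 (by rw [mul_assoc, ← ta])
    have cy := mem_cent1.1 (mul_mem (mul_mem (mul_mem hv.2 m) (inv_mem hv.2)) (inv_mem m))
    refine mem_cent1.2 (commutatorElement_eq_one_iff_mul_comm.1
      (h.no_inv hE e ht ha c d ne (YF (cm_le (nY ht) (cm_mem hv.1))) ty ?_))
    rw [← ty, ← commutatorElement_def] at *
    calc a * ⁅v, t⁆ * a⁻¹ = t⁻¹ * (t * a * ⁅v, t⁆) * a⁻¹ := by group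
      _ = t⁻¹ * ⁅v, t⁆ * t := by rw [← cy]; group
      _ = _ := by rw [inv_eq_of_mul_eq_one_right tt]⟩
  refine (nil_le ((F_nil K).mono YF) inf_le_left ((e.abel.mono hX).le_of_cent1 (fun q => ?_)
    (hX.trans nY) (cp hX) fun x hx x1 => ?_)).trans inf_le_right
  · have := (e.le hX).cyc_iff.1 q
    have h7 := h.big_pair hE e ht ha c d ne
    have h6 := (e.pi.le hX).card_eq
    have ne1 : ∀ {a : Γ}, (𝐂₁ a).relIndex W = 4 → a ≠ 1 := fun c q => by simp [q] at c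
    have h8 : 2 < ♯(zpowers t ⊔ zpowers a) := three_le (mem_sup_left (mem_zpowers t))
      (mem_sup_right (mem_zpowers a)) (ne1 c) (ne1 d) ne.symm
    have := Nat.pow_le_pow_right two_pos this
    omega
  obtain ⟨p, hp, q, hq, rfl⟩ := (mem_sup_norm' ((zpowers_le.2 ha).trans
    (e.abel.le_norm (zpowers_le.2 ht)))).1 hx
  rcases mem_zp tt hp with rfl | rfl <;> rcases mem_zp (sq1 e ha) hq with rfl | rfl
  · exact absurd (mul_one 1) x1
  · rw [one_mul]; exact le_sup_right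
  · rw [mul_one]; exact k1.trans le_sup_left
  · exact (k2.trans k1).trans le_sup_left

theorem V_cent : ⁅W, zpowers t⁆ ≤ 𝐂₁ a := by
  have h7 := h.big_pair hE e ht ha c d ne
  rw [cent_sup, cent_zpowers, cent_zpowers] at h7
  have h1 := relIndex_inf_mul_relIndex (𝐂₁ t) (𝐂₁ a) W
  have h2 : (𝐂₁ t).relIndex (𝐂₁ a ⊓ W) ≤ 4 :=
    (relIndex_le_of_le_right inf_le_right (relIndex_ne_zero' _ _)).trans c.le
  have h3 := two_mul_le (piNat_pow_self Nat.prime_two 3) (h.pi_idx _ le_rfl) (by omega) h7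
  have n := h.n (hE ht)
  have m : t ∈ 𝐍 (𝐂₁ a ⊓ W) := norm_inf (norm_of_le (zpowers_le.2 (mem_cent1.2
    (e.abel.mul_comm ht ha)))) (zpowers_le.2 n) (mem_zpowers t)
  refine ((eq_of_card_le (commutator_mono inf_le_right le_rfl) ?_).ge.trans (cm_le m)).trans inf_le_left
  rw [card_cm h.e.abel n, card_cm (h.e.abel.mono inf_le_right) m, c]
  rw [d] at h1
  omega

theorem YY : ⁅𝐅 K, zpowers a⁆ ≤ 𝐂 ⁅𝐅 K, zpowers t⁆ ⊓ 𝐂 ⁅W, ⁅𝐅 K, zpowers t⁆⁆ := by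
  have nF := hE.trans (F_normal K).norm
  have cc := fun {t} (ht : t ∈ E) => (comm_comm_eq (zpowers_le.2 (nF ht))
    (PiNat.coprime (e.pi.le (zpowers_le.2 ht)) h.F_odd) (.inl (abel_zpowers t).sol)).ge
  have c1 := h.Y_cent hE e ht ha c d ne
  have c2 := h.Y_cent hE e ha ht d c ne.symm
  have l1 := cm_le (nF ht)
  have l2 := cm_le (nF ha)
  set Y := ⁅𝐅 K, zpowers t⁆
  set Z := ⁅𝐅 K, zpowers a⁆
  have k1 : Y ≤ 𝐂 Z := by
    refine comm_eq_bot.1 (eq_bot_mono (le_bot_iff.1 (three_subgroup (N := ⊥) (A := Y)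
      (B := zpowers t) (C := Z) (by simp) (by simp) (by simp) ?_ ?_)) (commutator_mono (cc ht) le_rfl))
    · rw [comm_eq_bot'.2 (c2.trans (cent_zpowers t).ge), commutator_bot_left]
    · exact (commutator_mono (comm_le_left (l1.trans (norm_comm_left _ _))) le_rfl).trans
        (comm_eq_bot.2 (cent_zpowers t ▸ c2)).le
  have k2 : Z ≤ 𝐂 ⁅W, zpowers t⁆ := (cc ha).trans ((commutator_mono le_rfl (zpowers_le.2
    (le_cent1_iff.1 (h.V_cent hE e ht ha c d ne)))).trans (comm_le_right (norm_cent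
      (norm_commutator (l2.trans ((F_le K).trans h.n)) (norm_of_cent (cent_zpowers t ▸ c2))))))
  refine le_inf (cent_symm k1) (cent_symm (le_trans ?_ (inf_le_right (a := W))))
  have : Y ≤ centMod W (W ⊓ 𝐂 Z) := (cc ht).trans ((commutator_mono le_rfl (zpowers_le.2
    (mem_cM inf_le_left (le_inf (cm_le (h.n (hE ht))) (cent_symm k2))))).trans (comm_le_right
      (norm_centMod (l1.trans ((F_le K).trans h.n)) (norm_inf (l1.trans ((F_le K).trans h.n))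
        (norm_of_le k1)))))
  exact (commutator_comm _ _).le.trans (le_centMod.1 this).2

end pair

theorem t4 (hE : E ≤ K) (n : A ≤ 𝐍 E) (e : Abelem 2 E) (ht : t ∈ E) : (𝐂₁ t).relIndex W ≠ 4 := by
  intro c
  have t1 : t ≠ 1 := fun q => by simp [q] at c
  have tt := sq1 e ht
  have nF := hE.trans (F_normal K).norm
  have aF : A ≤ 𝐍 (𝐅 K) := le_norm_F h.fk.norm
  have FW := (F_le K).trans h.n
  have cc := (comm_comm_eq (zpowers_le.2 (nF ht))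
    (PiNat.coprime (e.pi.le (zpowers_le.2 ht)) h.F_odd) (.inl (abel_zpowers t).sol)).ge
  have YF := cm_le (nF ht)
  have cjY : ∀ g ∈ E ⊔ A, cj g ⁅𝐅 K, zpowers t⁆ = ⁅𝐅 K, zpowers (g * t * g⁻¹)⁆ := fun g hg =>
    cj_cm (sup_le nF aF hg) t
  have cjc : ∀ g ∈ E ⊔ A, (𝐂₁ (g * t * g⁻¹)).relIndex W = 4 := fun g hg => by
    rw [← cj_cent1, ← cj_of_norm (sup_le (hE.trans h.n) h.aW hg), relIndex_cj]; exact c
  have cjE : ∀ g ∈ E ⊔ A, g * t * g⁻¹ ∈ E := fun g hg =>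
    conj_mem_of_norm (sup_le (le_norm_self E) n hg) ht
  set Y := ⁅𝐅 K, zpowers t⁆
  have Y1 : Y ≠ ⊥ := fun q => t1 ((piElt_of_pow_eq_one Nat.prime_two (e.pow t ht)).eq_one
    (h.F_odd.elt (h.sol.cent_F_le ⟨hE ht, comm_eq_bot'.1 q (mem_zpowers t)⟩)))
  have nZ : t ∈ 𝐍 (𝐙 Y) := norm_center Y (cm_norm _ t)
  have ZK : 𝐙 Y ≤ K := inf_le_left.trans (YF.trans (F_le K))
  have oZ : ∀ z ∈ 𝐙 Y, Odd (orderOf z) := fun z hz => h.odd (YF hz.1)
  by_cases q : 𝐙 Y ⊓ 𝐂₁ t = ⊥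
  · have iv : ∀ z ∈ 𝐙 Y, t * z * t⁻¹ = z⁻¹ := fun z hz => by
      have m := conj_mem_of_norm nZ hz
      refine eq_inv_of_mul_eq_one_right (eq_one_of_mem_bot q ⟨mul_mem hz m, mem_cent1.2 ?_⟩)
      conv_rhs => rw [(center_abel Y).mul_comm hz m, ← mul_assoc, ← mul_assoc, ← mul_assoc, tt, one_mul,
        inv_eq_of_mul_eq_one_right tt]
      group
    have cy : Cyc (𝐙 Y) := by
      by_contra nc
      obtain ⟨z, hz, z1⟩ := exists_mem_ne_one (((F_nil K).mono YF).center_ne_bot Y1)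
      have nL : 𝐙 Y ≤ 𝐍 ⁅W, zpowers z⁆ := norm_commutator (ZK.trans h.n)
        ((center_abel Y).le_norm (zpowers_le.2 hz))
      obtain ⟨y, hy, y1, ne⟩ := (center_abel Y).exists_cent1_ne_bot nc nL
        (PiNat.coprime' (h.F_odd.le (inf_le_left.trans YF)) (h.e.pi.le (cm_le (h.n (ZK hz)))))
        (one_lt_card.1 (by have := h.big (ZK hz) (oZ z hz) z1; omega))
      have l := h.cm_sub (hE ht) (ZK hy) (oZ y hy) y1 tt (iv y hy) c
      have l2 := (inv_cm (h.n (hE ht)) (h.n (ZK hz)) (oZ z hz) tt (iv z hz)).trans (sup_le l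
        (cj_le_of_norm (norm_commutator (ZK.trans h.n) ((center_abel Y).le_norm (zpowers_le.2 hy)) hz) l))
      exact ne (eq_bot_of_forall fun v hv => cm_fix h.e (h.n (ZK hy)) (oZ y hy) (l2 hv.1) hv.2)
    obtain ⟨z, hz⟩ := cy.exists_gen
    have zZ : z ∈ 𝐙 Y := hz ▸ mem_zpowers z
    obtain ⟨a, ha, b, hb, ab⟩ := (h.fk.mono hE n).comm ht
    have := cyc_lem (c := z) ha hb ab (hz ▸ nZ) fun g hg => by
      by_cases k : g⁻¹ * t * g⁻¹⁻¹ = t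
      · refine .inl (hz ▸ norm_center Y (inv_mem_iff.1 (mem_norm_of_cj_le ?_)))
        rw [cjY _ (inv_mem hg), k]
      · have := mem_cent1.1 (h.Y_cent hE e ht (cjE _ (inv_mem hg)) c (cjc _ (inv_mem hg)) k zZ.1)
        refine .inr ?_
        calc _ = g * (g⁻¹ * t * g⁻¹⁻¹ * z) * g⁻¹ := by group
          _ = _ := by rw [← this]; group
    refine ((F_nil K).mono YF).center_ne_bot Y1 ?_
    rw [← hz, zpowers_eq_bot]
    exact eq_one_of_mem_bot q ⟨zZ, mem_cent1.2 this.symm⟩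
  obtain ⟨z, ⟨hz, zt⟩, z1⟩ := exists_mem_ne_one q
  have zW := h.n (ZK hz)
  have tW := h.n (hE ht)
  have nV : z ∈ 𝐍 ⁅W, zpowers t⁆ := norm_commutator (zpowers_le.2 zW)
    (norm_of_cent (cent_zpowers t ▸ zpowers_le.2 zt)) (mem_zpowers z)
  have eV := h.e.le (cm_le tW)
  have cV : ♯⁅W, zpowers t⁆ = 4 := (card_cm h.e.abel tW).trans c
  have cp := PiNat.coprime' (h.F_odd.le YF) h.e.pi
  have nc : ⁅⁅W, zpowers t⁆, zpowers z⁆ ≠ ⊥ := fun k => z1 (eq_one_of_mem_bot h.f ⟨ZK hz, by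
    have : Y ≤ centMod W (W ⊓ 𝐂₁ z) := cc.trans ((commutator_mono le_rfl (zpowers_le.2
      (mem_cM inf_le_left (le_inf (cm_le tW) (cent_zpowers z ▸ comm_eq_bot.1 k))))).trans
        (comm_le_right (norm_centMod (YF.trans FW) (norm_inf (YF.trans FW)
          (norm_of_le (le_cent1_iff.2 hz.2))))))
    refine le_cent1_iff.1 ((comm_sup_inf_cent (YF.trans FW) cp (.inr h.e.abel.sol)).ge.trans ?_)
    exact sup_le ((commutator_comm _ _).le.trans ((le_centMod.1 this).2.trans inf_le_right))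
      (inf_le_right.trans (cent_le_cent1 hz.1))⟩)
  obtain ⟨r, hr, r1⟩ := exists_mem_ne_one nc
  obtain ⟨k1, k2⟩ := four_orb (cm_norm _ z) (oZ z hz) (fun v => cm_fix eV nV (oZ z hz))
    ((card_le (cm_le nV)).trans cV.le) hr r1
  have eq := eq_of_card_eq (cm_le nV) (k1.trans cV.symm)
  have UW : ⁅W, 𝐅 K⁆ ≤ W := comm_le_left FW
  refine r1 (blk (U := ⁅W, 𝐅 K⁆) (D := 𝐅 K) (A := A) (B := Y) ⟨norm_commutator h.aW aF, aF,
    fun v hv _ k => eq_one_of_mem_bot (h.e.abel.comm_inf_cent FW (PiNat.coprime' h.F_odd h.e.pi))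
      ⟨hv, h.fx v (UW hv) (k.mono (F_le K) le_rfl)⟩⟩ (h.e.le UW) h.F_odd (norm_comm_right _ _) YF
    ?_ fun g hg => ?_)
  · refine (comm_comm_eq (YF.trans FW) cp (.inr h.e.abel.sol)).ge.trans (commutator_mono
      (commutator_mono le_rfl YF) le_rfl) (commutator_mono (cm_le tW) (zpowers_le.2 hz.1) hr)
  have hg' := mem_sup_right (S := E) hg
  by_cases k : g * t * g⁻¹ = t
  · refine .inl ⟨mem_norm_of_cj_le (by rw [cjY g hg', k]), ?_⟩
    have : g * r * g⁻¹ ∈ ⁅⁅W, zpowers t⁆, zpowers z⁆ := by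
      rw [eq, ← k, ← cj_cm (h.aW hg)]; exact conj_mem_cj.2 (eq ▸ hr)
    rcases k2 _ this with q | q | q | q
    · exact absurd (conj_eq_one_iff.1 q) r1
    · exact ⟨1, one_mem _, by simpa using q⟩
    · exact ⟨z, hz.1, q⟩
    · exact ⟨z * z, mul_mem hz.1 hz.1, q⟩
  · refine .inr ?_
    rw [cjY g hg']
    exact (h.YY hE e ht (cjE g hg') c (cjc g hg') k).trans
      (inf_le_inf_left _ (cent_anti (commutator_mono UW le_rfl)))

end FM

/-! ### back from the faithful model -/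

theorem fm_bar (hK : Fp K A) (s : Sol K) (nW : W ⊴ K) (aW : A ≤ 𝐍 W) (e : Abelem 2 W)
    (red : ∀ D, D ⊴ K → PiNat {2} ((𝐂 W).relIndex D) → D ≤ 𝐂 W) :
    FM (bar W K) (hat W W) (bar W A) := by
  have n := nW.norm
  have o : 𝐎 {2} (bar W K) = ⊥ := by
    have h1 := Loc.bar_unbar (O_le {2} (bar W K))
    have h2 : K ⊓ Loc.unbar W (𝐎 {2} (bar W K)) ≤ 𝐍 W := inf_le_left.trans n
    rw [← h1, Loc.bar_eq_bot_iff h2]
    refine red _ (normalIn_inf_left (Loc.le_normalizer_unbar n (O_normal _ _).norm)) ?_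
    rw [← Loc.card_bar h2, h1]
    exact O_pi _ _
  refine ⟨(hK.subgroupOf n aW).map (piV W), sol_bar s n, Loc.bar_le_normalizer_hat A,
    fun w hw c => ?_, fun y hy o i => ?_, ab_hat e,
    Loc.bar_le_normalizer_hat K, Loc.bar_inf_centralizer_hat n, o⟩
  · obtain ⟨z, hz, rfl⟩ := (FF.mem_hat_iff le_rfl).1 hw
    obtain ⟨Q, hQ, k⟩ := hK.cent_hall s nW e.pi hz fun a ha => by
      obtain ⟨k', hk', e⟩ := c _ (FF.pb_mem aW ha)
      obtain ⟨k, hk, rfl⟩ := (FF.mem_bar_iff n).1 hk'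
      have m := mul_mem (n hk) (aW ha)
      rw [← FF.pb_mul (n hk) (aW ha), mem_cent1, ← mul_inv_eq_iff_eq_mul, ← FF.ib_conj m hz] at e
      exact ⟨k, hk, mem_cent1.2 (mul_inv_eq_iff_eq_mul.1 ((FF.ib_inj (conj_mem_of_norm m hz) hz).1 e))⟩
    have h1 := (F_nil (bar W K)).hall_O {2}
    rw [O_F, o] at h1
    exact cent_anti ((le_O (F_normal _) h1.pi'_of_eq_bot).trans ((hall_subgroupOf hQ n).map (piV W)).O_le)
      ((FF.ib_mem_cent (hQ.le.trans n) hz).2 k)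
  · obtain ⟨g, hg, rfl⟩ := (FF.mem_bar_iff n).1 hy
    obtain ⟨v, m1, m2, p1, p2, q⟩ := constt_spec {2}ᶜ g
    have k1 := zpowers_le.2 hg m1
    have k2 := zpowers_le.2 hg m2
    have : pb W v = 1 := by
      refine PiElt.eq_one (π := {2}ᶜ) ((odd_pi o).elt (FF.bar_zpowers' (n hg) ▸
        FF.pb_mem (zpowers_le.2 (n hg)) m2)) (PiNat.dvd p2 ?_)
      rw [FF.pb_eq (n k2)]
      exact (orderOf_map_dvd _ _).trans (orderOf_mk v (n k2)).dvd
    rw [← q, FF.pb_mul (n k1) (n k2), this, mul_one] at i ⊢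
    rw [← cent_zpowers, ← FF.bar_zpowers' (n k1), idx_bar (zpowers_le.2 (n k1)), cent_zpowers] at i
    rw [(FF.pb_eq_one (n k1)).2 (s4e hK s nW aW e k1 (pi_odd p1) i)]
    exact one_mem _

theorem wh_of (hK : Fp K A) (s : Sol K) (nW : W ⊴ K) (aW : A ≤ 𝐍 W) (e : Abelem 2 W) (hT : T ≤ K)
    (red : ∀ D, D ⊴ K → PiNat {2} ((𝐂 W).relIndex D) → D ≤ 𝐂 W) : Wh T W A := by
  have h := fm_bar hK s nW aW e red
  have n := nW.norm
  have ab : ∀ {E : Subgroup Γ}, Abelem 2 E → Abelem 2 (bar W E) := fun e =>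
    .of_isEA Nat.prime_two (FF.isElemAb_bar e.isEA)
  refine ⟨fun E hE a c => ?_, fun E hE a c => ?_, fun E hE nE a b t ht => ?_⟩ <;>
    have m : E ≤ 𝐍 W := hE.trans (hT.trans n)
  · rw [← Loc.bar_eq_bot_iff m]
    exact h.nf _ (Loc.bar_mono (hE.trans hT)) (ab a) (by rwa [idx_bar m, Loc.card_bar m])
  · rw [← Loc.card_bar m]
    exact h.f1 _ (Loc.bar_mono (hE.trans hT)) (ab a) (by rwa [idx_bar m, Loc.card_bar m])
  · rw [← cent_zpowers, ← idx_bar (zpowers_le.2 (m ht)), FF.bar_zpowers' (m ht), cent_zpowers]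
    refine h.t4 (Loc.bar_mono (hE.trans hT)) (Loc.bar_le_normalizer_bar aW nE)
      (.mk' Nat.prime_two ?_ fun x hx => ?_) (FF.pb_mem m ht)
    · rw [← der_eq_bot, ← Loc.bar_commutator m m, Loc.bar_eq_bot_iff ((der_le E).trans m)]
      exact a
    · obtain ⟨g, hg, rfl⟩ := (FF.mem_bar_iff m).1 hx
      rw [pow_two, ← FF.pb_mul (m hg) (m hg), FF.pb_eq_one (mul_mem (m hg) (m hg))]
      exact b g hg

theorem MC.W_normal {G : Subgroup Γ} (h : MC G A T) : WW G T ⊴ MM G T :=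
  ⟨(W_le G T).trans h.T_le_M, M_norm G T⟩

theorem MC.wh {G : Subgroup Γ} (h : MC G A T) : Wh T (WW G T) A :=
  wh_of h.fpM h.M_sol h.W_normal h.normW (W_abelem G T) h.T_le_M fun _ => h.red

end CF.Anc
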