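import Cfsg.Agent.Anc.P3

/-! Anticentral elements: strong closure in the minimal counterexample -/

set_option autoImplicit false

namespace CF.Anc
open Cfsg Subgroup CF.Loc CF.FF CF.Odc
open scoped commutatorElement MatrixGroups

universe u
variable {Γ : Type u} [Group Γ] {G A T S L Q M Y : Subgroup Γ}
  {g n z u r s v a q : Γ} {F : Type} [Field F] {ρ : Γ → SL(2, F)} {ψ : Γ → Fin 2 → F} {C D : Set Γ}

local notation "𝐌" => MM G T
local notation "𝐙" => Cfsg.omegaOneCenter 2 T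
local notation "𝐁₀" => Cfsg.baumannSubgroupOf 2 S

theorem bad_cj (h : Bad G M Y) (a : n ∈ 𝐍(G)) (b : n ∈ 𝐍(M)) : Bad G M (cj[n] Y) := by
  obtain ⟨g, hg, c⟩ := h
  refine ⟨n * g * n⁻¹, ⟨conj_mem_of_mem_normalizer a hg.1, cj_normalizer n Y ▸ conj_mem_cj n hg.2⟩, ?_⟩
  rintro ⟨m, hm, e⟩
  refine c ⟨n⁻¹ * m * n, BG.conj_mem_of_norm' b hm, ?_⟩
  rw [← cj_centralizer, mem_cj] at e
  convert e using 1
  group

section fr
open Dd
variable {c : Γ} (h : Fr T z C r) (k : Fr T z D s) (ne : s ∉ zpowers r)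
include h k ne

theorem fr_act (ha : a ∈ C) (hc : c ∈ D) : a * c * a⁻¹ = c ∨ a * c * a⁻¹ = c * z := by
  have aa := h.aa a ha
  have cc := k.aa c hc
  have c1 := h.cl c (k.sub c hc) (k.az c hc) a ha
  have c2 := k.cl a (h.sub a ha) (h.az a ha) c hc
  have e : a * (c * a * c⁻¹) = (c * (a * c * a⁻¹))⁻¹ := by
    simp only [mul_inv_rev, Dd.inv_sq aa, Dd.inv_sq cc, mul_assoc]
  rcases h.dich ha c1 with q | q | ⟨m, q⟩
  · rw [e, inv_eq_one, mul_eq_one_iff_inv_eq, Dd.inv_sq cc] at q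
    exact .inl q.symm
  · rw [e, inv_eq_iff_eq_inv, Dd.inv_sq h.zz, ← eq_inv_mul_iff_mul_eq, Dd.inv_sq cc] at q
    exact .inr q
  · have q1 := h.uq ha q (inv_l aa (h.aa _ c1) m) (pow_cl h.aa h.cl' ha c1 m)
    have q2 := k.uq hc (v := (c * (a * c * a⁻¹)) ^ m) (by
      rw [e, inv_pow, ← mul_inv_rev, inv_eq_iff_eq_inv, Dd.inv_sq h.zz] at q; exact q)
      (inv_l cc (k.aa _ c2) m) (pow_cl k.aa k.cl' hc c2 m)
    rw [e, inv_pow] at q1
    have : (c * (a * c * a⁻¹)) ^ m ∈ zpowers r := by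
      rw [← inv_mem_iff]
      rcases q1 with q1 | q1 <;> rw [q1]
      exacts [mem_zpowers r, inv_mem (mem_zpowers r)]
    rcases q2 with q2 | q2 <;> rw [q2] at this
    exacts [absurd this ne, absurd (inv_mem_iff.1 this) ne]

theorem fr_cent [Finite Γ] (ha : a ∈ C) (hc : c ∈ D) (hq : q ∈ T) (q1 : q * z = z * q)
    (q2 : q * a = a * q) : q * c * q⁻¹ = c ∨ q * c * q⁻¹ = c * z := by
  have c1 := k.cl q hq q1 c hc
  have cc := k.aa c hc
  have ne' : r ∉ zpowers s := fun m => ne (by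
    have o : ∀ {C r}, Fr T z C r → orderOf r = 2 ^ 2 := fun h => orderOf_eq_prime_pow
      (by rw [pow_one, sq, h.rr]; exact h.z1) (by rw [pow_succ, pow_mul, pow_one, sq, sq, h.rr, h.zz])
    rw [eq_of_le_of_card_le (zpowers_le.2 m) (by rw [Nat.card_zpowers, Nat.card_zpowers, o h, o k])]
    exact mem_zpowers s)
  have e : c * (q * c * q⁻¹) * a = a * (c * (q * c * q⁻¹)) := by
    have e1 : q * c * q⁻¹ * a * (q * c * q⁻¹)⁻¹ = c * a * c⁻¹ := by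
      calc _ = q * (c * (q⁻¹ * (a * q)) * c⁻¹) * q⁻¹ := by group
        _ = q * (c * a * c⁻¹) * q⁻¹ := by rw [← q2, inv_mul_cancel_left]
        _ = _ := by
          rcases fr_act k h ne' hc ha with e | e <;> rw [e]
          · rw [q2, mul_inv_cancel_right]
          · rw [cj_mul q1, q2, mul_inv_cancel_right]
    rw [← mul_inv_eq_iff_eq_mul]
    calc _ = c * (q * c * q⁻¹ * a * (q * c * q⁻¹)⁻¹) * c⁻¹ := by group
      _ = c * c * a * (c * c)⁻¹ := by rw [e1]; group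
      _ = a := by rw [cc]; group
  rcases k.dich hc c1 with p | p | ⟨m, p⟩
  · rw [mul_eq_one_iff_inv_eq, Dd.inv_sq cc] at p
    exact .inl p.symm
  · rw [← eq_inv_mul_iff_mul_eq, Dd.inv_sq cc] at p
    exact .inr p
  · exact absurd p (h.ns a ha _ (pow_mem (mul_mem (k.sub c hc) (k.sub _ c1)) m)
      (Commute.pow_left (Commute.mul_left (k.az c hc) (k.az _ c1)) m) (Commute.pow_left e m))

end fr

variable [Finite Γ]

namespace Nz
variable (h : Nz G A T S F L Q z u)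
include h

theorem cj' (hn : n ∈ 𝐍(T) ⊓ 𝐍(G) ⊓ 𝐍(𝐁₀)) :
    Nz G A T S F (cj[n] L) (cj[n] Q) (n * z * n⁻¹) (n * u * n⁻¹) := by
  refine ⟨h.toTw.cj hn.2, h.s, cj_le_of_mem_normalizer hn.1.2 h.LG, fun Y a b => ?_⟩
  have := bad_cj (h.bad (cj[n⁻¹] Y) ?_ ?_) hn.1.2 (BG.norm_inf (zpowers_le.2 hn.1.2)
    ((norm_le_normW (zpowers_le.2 hn.1.2) (zpowers_le.2 hn.1.1)).trans (BG.norm_le_norm_norm _))
      (mem_zpowers n))
  · rwa [cj_cj_inv] at this
  · rw [← cj_le_iff, cj_eq_self (normalizer_le_normalizer_omegaOneCenter 2 T hn.1.1)]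
    exact a
  · rwa [← cj_normalizer, ← cj_le_iff]

variable (hg : g ∈ 𝐍(T) ⊓ 𝐍(G) ⊓ 𝐍(𝐁[2](S))) (c : ¬ UU (cj[g] L) (cj[g] Q) ≤ Q)
include hg c

theorem z_mem : z ∈ zpowers (u * (g * u * g⁻¹)) := by
  have p := h.par (h.cj' hg).toTw c
  have := mul_mem (mem_zpowers (u * (g * u * g⁻¹))) (mem_zpowers (u * (g * u * g⁻¹)))
  nth_rewrite 2 [p] at this
  rwa [mul_assoc z, mul_assoc (g * u * g⁻¹), ← mul_assoc u u, h.uu, one_mul, (h.cj' hg).uu,
    mul_one] at this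

theorem canon (hn : n ∈ 𝐍(T) ⊓ 𝐍(G) ⊓ 𝐍(𝐁₀)) (e : n * z * n⁻¹ = z) :
    u * (n * u * n⁻¹) ∈ zpowers (u * (g * u * g⁻¹)) := by
  have h' := h.cj' hg
  have k := h.cj' hn
  have zm := h.z_mem hg c
  by_cases m : UU (cj[n] L) (cj[n] Q) ≤ Q
  · rw [e] at k
    rcases h.fx h'.toTw c k.toTw k.LG m with q | q <;> rw [q]
    · rw [h.uu]; exact one_mem _
    · rwa [← mul_assoc u u, h.uu, one_mul]
  · rcases h.uniq h' c k.toTw k.LG m with q | q <;> rw [q]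
    · exact mem_zpowers _
    · rw [← mul_assoc u _ z]; exact mul_mem (mem_zpowers _) zm

theorem fin (k1 : ∀ n ∈ T ⊔ A, n * z * n⁻¹ ≠ z →
      u * (n * (u * (g * u * g⁻¹)) * n⁻¹) = n * (u * (g * u * g⁻¹)) * n⁻¹ * u)
    (k2 : ∀ n ∈ T ⊔ A, n * z * n⁻¹ = z →
      n * (u * (g * u * g⁻¹)) * n⁻¹ ∉ zpowers (u * (g * u * g⁻¹)) → n ∈ 𝐍(𝐁₀)) : False := by
  have h' := h.cj' hg
  have nu : u ∈ 𝐍(zpowers (u * (g * u * g⁻¹))) := inv_norm (by simpa using Dd.inv_l h.uu h'.uu 1)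
  obtain ⟨a, ha, b, hb, e⟩ := (h.s.fp.mono h.s.syl.le h.s.inv).comm (h.s.BT (h.d.UB h.uU))
  have := cyc_lem ha hb e nu fun n hn => by
    by_cases q : n * z * n⁻¹ = z
    swap
    · exact .inr (k1 n hn q)
    refine .inl (mem_normalizer_of_cj_le ?_)
    rw [cj_zpowers, zpowers_le]
    by_contra m
    have n1 : n ∈ 𝐍(T) ⊓ 𝐍(G) ⊓ 𝐍(𝐁₀) := ⟨⟨sup_le le_normalizer h.s.inv hn,
      sup_le (h.s.syl.le.trans le_normalizer) h.s.fp.norm hn⟩, k2 n hn q m⟩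
    have a1 := h.canon hg c n1 q
    have a2 := h.canon hg c (mul_mem n1 hg) (by
      rw [show n * g * z * (n * g)⁻¹ = n * (g * z * g⁻¹) * n⁻¹ by group, h.zeq h'.toTw c, q])
    refine m ?_
    have := mul_mem (conj_mem_of_mem_normalizer nu a1) a2
    rw [← mul_assoc u u, h.uu, one_mul, h.ui, mul_assoc (n * u * n⁻¹) u, ← mul_assoc u u, h.uu, one_mul] at this
    convert this using 1
    group
  rw [mul_assoc u, mul_right_inj, h.par h'.toTw c, mul_eq_right] at this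
  exact h.z1 this

end Nz

theorem SN.false_two (h : SN G A T S L Q F ρ ψ) (c : Nat.card F = 2) : False := by
  obtain ⟨z, u, k⟩ := exists_tw h.nd c
  have nz : Nz G A T S F L Q z u := ⟨k, h.toSel, h.LG, fun _ => h.bad_of⟩
  by_cases e : S = T
  · subst e
    have N := h.nb_eq
    obtain ⟨g, hg, p⟩ := h.partner N
    refine nz.fin ⟨⟨N.nT hg, N.nG hg⟩, N.norm hg⟩ p (fun n hn q => ?_) fun n hn _ _ => N.norm hn
    have key : ∀ m ∈ S ⊔ A, m * z * m⁻¹ ≠ z → m * u * m⁻¹ ∈ Q := fun m hm q => by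
      by_contra r
      exact q (k.zeq (k.cj (N.norm hm)) fun l => r (l (k.cj (N.norm hm)).uU))
    have := k.d.UC k.uU _ (mul_mem (key n hn q) (key (n * g) (mul_mem hn hg) (by
      rwa [show n * g * z * (n * g)⁻¹ = n * (g * z * g⁻¹) * n⁻¹ by group,
        k.zeq (k.cj (N.norm hg)) p])))
    rw [show n * u * n⁻¹ * (n * g * u * (n * g)⁻¹) = n * (u * (g * u * g⁻¹)) * n⁻¹ by group] at this
    exact this.symm
  obtain ⟨g, hg, p⟩ := h.partner (h.nb_lt e)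
  have d := nz.dh hg p
  have p2 : ∀ t ∈ T, ∃ k : ℕ, t ^ (2 ^ k) = 1 := fun t ht => by
    obtain ⟨m, hm⟩ := h.pT ⟨t, ht⟩
    exact ⟨m, congrArg Subtype.val hm⟩
  have uC : u ∈ Dd.cls (T ⊓ centralizer {z}) u := ⟨1, one_mem _, by group⟩
  have vC : g * u * g⁻¹ ∈ Dd.cls (T ⊓ centralizer {z}) u := ⟨g, ⟨d.gT, BG.mem_cent1.mpr d.gz⟩, rfl⟩
  have f := (Dd.fc d p2 h.syl.pi.nil).fr uC vC d.par
  have nT : T ⊔ A ≤ 𝐍(T) := sup_le le_normalizer h.inv
  refine nz.fin ⟨⟨le_normalizer hg.1, le_normalizer (h.syl.le hg.1)⟩, hg.2⟩ p (fun n hn q => ?_)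
    fun n hn q m => ?_ <;> have f' := f.cjn (nT hn)
  · exact Dd.cj_iff.1 (Dd.cent_s' f f' (Ne.symm q) (Dd.all_comm f f') uC)
  rw [q] at f'
  have k' := k.cj hg.2
  have vD : n * u * n⁻¹ ∈ (fun x => n * x * n⁻¹) '' Dd.cls (T ⊓ centralizer {z}) u := ⟨u, uC, rfl⟩
  have nV : ∀ b : Γ, b * z = z * b → (b * (n * u * n⁻¹) * b⁻¹ = n * u * n⁻¹ ∨
      b * (n * u * n⁻¹) * b⁻¹ = n * u * n⁻¹ * z) → b ∈ cj[n] 𝐍(UU L Q) := fun b b1 b2 => by
    have ez : ∀ x : Γ, n⁻¹ * (x * z) * n = n⁻¹ * x * n * z := fun x => by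
      nth_rewrite 1 [← q]; group
    refine mem_cj.2 (k.norm_of ?_ (b2.imp (fun e => ?_) fun e => ?_))
    · rw [← ez, b1]; nth_rewrite 1 [← q]; group
    · calc _ = n⁻¹ * (b * (n * u * n⁻¹) * b⁻¹) * n := by group
        _ = _ := by rw [e]; group
    · calc _ = n⁻¹ * (b * (n * u * n⁻¹) * b⁻¹) * n := by group
        _ = _ := by rw [e, ez]; group
  have l : 𝐁₀ ≤ cj[n] (T ⊓ 𝐍(UU L Q)) := by
    rw [cj_inf, cj_eq_self (nT hn)]
    refine le_inf h.BT ((k.d.sup_eq k'.d p).ge.trans (sup_le (k'.le_of ?_ ?_) fun b hb => ?_))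
    · rw [k.zeq k' p]
      exact nV z rfl (.inl (Dd.cj_iff.2 (f'.az _ vD).symm))
    · exact nV _ (f.az _ vC) (fr_act f f' m vC vD)
    · have b1 := k.zc (k.d.le hb)
      exact nV b b1 (fr_cent f f' m uC vD (h.BT (k.d.le hb)) b1 (k.d.UC k.uU b hb))
  have e1 := nz.baum (h.pT.to_le inf_le_left) nz.T_norm (le_inf h.BT (k.d.BL.trans k.d.nU))
  have e2 := (of_wt (e1 ▸ l) (wt_cj n _).le).1
  rwa [← cj_baumann, e1, cj_eq_self_iff] at e2

theorem MC.mx (h : MC G A T) : MX G A T :=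
  { h with
    nf := h.wh.nf
    fact := h.fact h.wh
    lemS := fun _ hx => not_tr h.fpM h.M_sol h.W_normal h.normW (W_abelem G T) hx }

/-- strong closure of `W` -/
theorem hs : HS.{u} := fun h =>
  h.mx.scl_of fun _ _ _ _ _ _ _ _ k => k.false_two k.card_two

end CF.Anc
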